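import Mathlib
import Cfsg.Agent.Lib.Helper18.SLMDefs

/-!
# S2332 project SLM (helper18), piece LEVX1 (helper40)

`x1 u * lev g = lev g * x1 (u ᵥ* g)`.
-/

set_option autoImplicit false
set_option linter.unusedSectionVars false

namespace Cfsg.Agent.Lib.Helper18.SLM

open Matrix

universe u

variable {F : Type u} [Field F] [Fintype F]

-- piece LEVX1
theorem lev_x1 {k : ℕ} (g : Matrix.SpecialLinearGroup (Fin k) F) (u : Fin k → F) :
    x1 u * lev g = lev g * x1 (Matrix.vecMul u (g : Matrix (Fin k) (Fin k) F)) := by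
  apply Subtype.ext
  rw [Matrix.SpecialLinearGroup.coe_mul, Matrix.SpecialLinearGroup.coe_mul, lev_val, x1_val,
    x1_val]
  ext i j
  refine Fin.cases ?_ (fun i' => ?_) i <;> refine Fin.cases ?_ (fun j' => ?_) j <;>
    simp [Matrix.mul_apply, Fin.sum_univ_succ, vecMulVec_apply, Matrix.add_apply,
      Matrix.one_apply, vecMul, dotProduct, Fin.succ_ne_zero, Ne.symm (Fin.succ_ne_zero _)]

end Cfsg.Agent.Lib.Helper18.SLM
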