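import Mathlib

set_option autoImplicit false

/-! Chief factors of a group, as pairs of normal subgroups (helper40; foundation for S1895). -/

namespace Cfsg.Agent.Lib.Helper40.Chief

open scoped commutatorElement

variable {G : Type*} [Group G]

/-- `H / K` is a chief factor of `G`. -/
def IsChief (H K : Subgroup G) : Prop :=
  H.Normal ∧ K.Normal ∧ K < H ∧
    ∀ L : Subgroup G, L.Normal → K ≤ L → L ≤ H → L = K ∨ L = H

/-- An element of `H ⊔ N` (`N` normal) is a product. -/
theorem mem_sup_normal {H N : Subgroup G} [N.Normal] {x : G} (hx : x ∈ H ⊔ N) :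
    ∃ h ∈ H, ∃ n ∈ N, x = h * n := by
  have h1 : x ∈ ((H ⊔ N : Subgroup G) : Set G) := hx
  rw [Subgroup.mul_normal] at h1
  obtain ⟨h, hh, n, hn, rfl⟩ := h1
  exact ⟨h, hh, n, hn, rfl⟩

/-- **Transfer of a chief factor along a normal subgroup**: the factor `H / K` is either
"inside" `N` or "above" `N`, with the same index. -/
theorem chief_transfer {H K : Subgroup G} (h : IsChief H K) (N : Subgroup G) [hN : N.Normal] :
    (IsChief (H ⊓ N) (K ⊓ N) ∧ (K ⊓ N).relIndex (H ⊓ N) = K.relIndex H) ∨
    (IsChief (H ⊔ N) (K ⊔ N) ∧ (K ⊔ N).relIndex (H ⊔ N) = K.relIndex H) := by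
  obtain ⟨hHn, hKn, hKH, hch⟩ := h
  haveI := hHn
  haveI := hKn
  have hW : ((H ⊓ N) ⊔ K).Normal := inferInstance
  rcases hch ((H ⊓ N) ⊔ K) hW le_sup_right (sup_le inf_le_left hKH.le) with h1 | h1
  · -- `H ⊓ N ≤ K`
    right
    have hHNK : H ⊓ N ≤ K := by
      rw [← h1]; exact le_sup_left
    have hded : (K ⊔ N) ⊓ H = K := by
      apply le_antisymm
      · intro x hx
        obtain ⟨hx1, hx2⟩ := Subgroup.mem_inf.mp hx
        obtain ⟨k, hk, n, hn, rfl⟩ := mem_sup_normal hx1
        have hnH : n ∈ H := by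
          have : n = k⁻¹ * (k * n) := by group
          rw [this]
          exact H.mul_mem (H.inv_mem (hKH.le hk)) hx2
        exact K.mul_mem hk (hHNK (Subgroup.mem_inf.mpr ⟨hnH, hn⟩))
      · exact le_inf le_sup_left hKH.le
    refine ⟨⟨inferInstance, inferInstance, ?_, ?_⟩, ?_⟩
    · refine lt_of_le_of_ne (sup_le_sup_right hKH.le N) ?_
      intro heq
      apply hKH.ne
      apply le_antisymm hKH.le
      rw [← hded]
      exact le_inf (heq ▸ le_sup_left) le_rfl
    · intro L hL hKL hLH
      haveI := hL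
      have hLHn : (L ⊓ H).Normal := inferInstance
      rcases hch (L ⊓ H) hLHn (le_inf (le_sup_left.trans hKL) hKH.le) inf_le_right with h2 | h2
      · left
        apply le_antisymm _ hKL
        intro x hx
        obtain ⟨y, hy, n, hn, rfl⟩ := mem_sup_normal (hLH hx)
        have hyL : y ∈ L := by
          have : y = (y * n) * n⁻¹ := by group
          rw [this]
          exact L.mul_mem hx (L.inv_mem (hKL (Subgroup.mem_sup_right hn)))
        have hyK : y ∈ K := by
          rw [← h2]; exact Subgroup.mem_inf.mpr ⟨hyL, hy⟩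
        exact Subgroup.mul_mem _ (Subgroup.mem_sup_left hyK) (Subgroup.mem_sup_right hn)
      · right
        apply le_antisymm hLH
        have hHL : H ≤ L := by
          rw [← h2]; exact inf_le_left
        exact sup_le hHL (le_sup_right.trans hKL)
    · have e1 : H ⊔ N = H ⊔ (K ⊔ N) := by
        rw [← sup_assoc, sup_eq_left.mpr hKH.le]
      rw [e1, Subgroup.relIndex_sup_right, ← Subgroup.inf_relIndex_right, hded]
  · -- `(H ⊓ N) ⊔ K = H`
    left
    refine ⟨⟨inferInstance, inferInstance, ?_, ?_⟩, ?_⟩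
    · refine lt_of_le_of_ne (inf_le_inf_right N hKH.le) ?_
      intro heq
      apply hKH.ne
      have h3 : H ⊓ N ≤ K := by
        rw [← heq]; exact inf_le_left
      rw [← h1]
      exact (sup_eq_right.mpr h3).symm
    · intro L hL hKL hLH
      haveI := hL
      have hLKn : (L ⊔ K).Normal := inferInstance
      rcases hch (L ⊔ K) hLKn le_sup_right (sup_le (hLH.trans inf_le_left) hKH.le) with h2 | h2
      · left
        apply le_antisymm _ hKL
        have hLK : L ≤ K := by
          rw [← h2]; exact le_sup_left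
        exact le_inf hLK (hLH.trans inf_le_right)
      · right
        apply le_antisymm hLH
        intro x hx
        obtain ⟨hxH, hxN⟩ := Subgroup.mem_inf.mp hx
        rw [← h2] at hxH
        obtain ⟨l, hl, k, hk, rfl⟩ := mem_sup_normal hxH
        have hkN : k ∈ N := by
          have : k = l⁻¹ * (l * k) := by group
          rw [this]
          exact N.mul_mem (N.inv_mem ((hLH.trans inf_le_right) hl)) hxN
        exact L.mul_mem hl (hKL (Subgroup.mem_inf.mpr ⟨hk, hkN⟩))
    · have e1 : K ⊓ N ⊓ (H ⊓ N) = K ⊓ (H ⊓ N) := by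
        apply le_antisymm
        · exact le_inf (inf_le_left.trans inf_le_left) inf_le_right
        · exact le_inf (le_inf inf_le_left (inf_le_right.trans inf_le_right)) inf_le_right
      rw [← Subgroup.inf_relIndex_right, e1, Subgroup.inf_relIndex_right]
      conv_rhs => rw [← h1]
      rw [Subgroup.relIndex_sup_right]

/-- **Fiber lemma**: if `f` separates the cosets of `C` in `S`, then `|S : S ∩ C| ≤ |α|`. -/
theorem relIndex_le_card_of_fiber [Finite G] (C S : Subgroup G) {α : Type*} [Finite α]
    (f : G → α) (hf : ∀ g ∈ S, ∀ h ∈ S, f g = f h → g⁻¹ * h ∈ C) :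
    C.relIndex S ≤ Nat.card α := by
  rw [Subgroup.relIndex, Subgroup.index]
  refine Nat.card_le_card_of_injective
    (fun q : ↥S ⧸ C.subgroupOf S => f ((Quotient.out q : ↥S) : G)) ?_
  intro q₁ q₂ h12
  have h1 := hf _ (Quotient.out q₁).2 _ (Quotient.out q₂).2 h12
  have h2 : (Quotient.out q₁)⁻¹ * Quotient.out q₂ ∈ C.subgroupOf S := by
    rw [Subgroup.mem_subgroupOf]
    simpa using h1
  have h3 : (QuotientGroup.mk (Quotient.out q₁) : ↥S ⧸ C.subgroupOf S)
      = QuotientGroup.mk (Quotient.out q₂) := QuotientGroup.eq.mpr h2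
  rw [QuotientGroup.out_eq', QuotientGroup.out_eq'] at h3
  exact h3

/-- The index of a section above `N` divides the index of `N`. -/
theorem relIndex_dvd_index_of_le' {N K H : Subgroup G} (hNK : N ≤ K) (hKH : K ≤ H) :
    K.relIndex H ∣ N.index :=
  (Subgroup.relIndex_dvd_index_of_le hKH).trans (Subgroup.index_dvd_of_le hNK)

/-- The index of a section between `N` and `S` divides `|S : N|`. -/
theorem relIndex_dvd_relIndex_of_le' {N K H S : Subgroup G} (hNK : N ≤ K) (hKH : K ≤ H)
    (hHS : H ≤ S) : K.relIndex H ∣ N.relIndex S := by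
  have h1 : N.relIndex K * K.relIndex H = N.relIndex H :=
    Subgroup.relIndex_mul_relIndex N K H hNK hKH
  have h2 : N.relIndex H * H.relIndex S = N.relIndex S :=
    Subgroup.relIndex_mul_relIndex N H S (hNK.trans hKH) hHS
  rw [← h2, ← h1]
  exact Dvd.dvd.mul_right (Dvd.intro_left _ rfl) _

end Cfsg.Agent.Lib.Helper40.Chief
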