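import Mathlib

set_option autoImplicit false

/-! Subgroups of index `p` in `p`-subgroups (helper40; utilities for S1895). -/

namespace Cfsg.Agent.Lib.Helper40.Chief

variable {G : Type*} [Group G]

/-- `|K| * |H : K| = |H|` for `K ≤ H`. -/
theorem card_mul_relIndex' {K H : Subgroup G} (hKH : K ≤ H) :
    Nat.card K * K.relIndex H = Nat.card H := by
  have h := Subgroup.relIndex_mul_relIndex ⊥ K H bot_le hKH
  rwa [Subgroup.relIndex_bot_left, Subgroup.relIndex_bot_left] at h

/-- `|M ∩ T|` computed inside `T`. -/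
theorem card_subgroupOf' {M T : Subgroup G} (hMT : M ≤ T) :
    Nat.card (M.subgroupOf T) = Nat.card M :=
  Nat.card_congr (Subgroup.subgroupOfEquivOfLe hMT).toEquiv

/-- A subgroup `M` of index `p` in a `p`-subgroup `T` is normalized by `T` and contains all
`p`-th powers of `T`. -/
theorem index_p_normal_pow [Finite G] {p : ℕ} [Fact p.Prime] {T M : Subgroup G}
    (hT : IsPGroup p T) (hMT : M ≤ T) (hcard : Nat.card M * p = Nat.card T) :
    (∀ t ∈ T, ∀ m ∈ M, t * m * t⁻¹ ∈ M) ∧ ∀ t ∈ T, t ^ p ∈ M := by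
  have hpp : p.Prime := Fact.out
  have hidx : (M.subgroupOf T).index = p := by
    have h1 := Subgroup.card_mul_index (M.subgroupOf T)
    rw [card_subgroupOf' hMT, ← hcard] at h1
    exact Nat.eq_of_mul_eq_mul_left Nat.card_pos h1
  have hmin : (Nat.card ↥T).minFac = p := by
    obtain ⟨k, hk⟩ := (IsPGroup.iff_card).mp hT
    have hk0 : k ≠ 0 := by
      rintro rfl
      rw [pow_zero] at hk
      rw [hk] at hcard
      have : p ∣ 1 := Dvd.intro_left _ hcard
      exact hpp.one_lt.ne' (Nat.dvd_one.mp this)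
    rw [hk]
    exact hpp.pow_minFac hk0
  haveI hn : (M.subgroupOf T).Normal :=
    Subgroup.normal_of_index_eq_minFac_card (hidx.trans hmin.symm)
  constructor
  · intro t ht m hm
    have h1 : (⟨m, hMT hm⟩ : ↥T) ∈ M.subgroupOf T := by
      rw [Subgroup.mem_subgroupOf]; exact hm
    have h2 := hn.conj_mem _ h1 ⟨t, ht⟩
    rw [Subgroup.mem_subgroupOf] at h2
    simpa using h2
  · intro t ht
    have h1 : ((⟨t, ht⟩ : ↥T) : ↥T ⧸ M.subgroupOf T) ^ p = 1 := by
      have := pow_card_eq_one' (G := ↥T ⧸ M.subgroupOf T) (x := ((⟨t, ht⟩ : ↥T) : ↥T ⧸ M.subgroupOf T))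
      rw [show Nat.card (↥T ⧸ M.subgroupOf T) = p from hidx] at this
      exact this
    rw [← QuotientGroup.mk_pow, QuotientGroup.eq_one_iff, Subgroup.mem_subgroupOf] at h1
    simpa using h1

/-- A proper subgroup of a `p`-subgroup `T` lies in a subgroup of index `p` of `T`. -/
theorem exists_index_p_above [Finite G] {p : ℕ} [Fact p.Prime] {T X : Subgroup G}
    (hT : IsPGroup p T) (hXT : X ≤ T) (hne : X ≠ T) :
    ∃ M : Subgroup G, X ≤ M ∧ M ≤ T ∧ Nat.card M * p = Nat.card T := by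
  have hpp : p.Prime := Fact.out
  obtain ⟨k, hk⟩ := (IsPGroup.iff_card).mp hT
  obtain ⟨j, hj⟩ := (IsPGroup.iff_card).mp (hT.to_le hXT)
  have hjk : j < k := by
    by_contra hcon
    push Not at hcon
    apply hne
    apply Subgroup.eq_of_le_of_card_ge hXT
    rw [hk, hj]
    exact Nat.pow_le_pow_right hpp.pos hcon
  obtain ⟨k', rfl⟩ : ∃ k', k = k' + 1 := ⟨k - 1, by omega⟩
  have hX' : Nat.card (X.subgroupOf T) = p ^ j := by rw [card_subgroupOf' hXT, hj]
  obtain ⟨K', hK'card, hK'⟩ := Sylow.exists_subgroup_card_pow_prime_le p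
    (show p ^ k' ∣ Nat.card ↥T from hk ▸ pow_dvd_pow p (Nat.le_succ k')) (X.subgroupOf T) hX'
    (by omega)
  refine ⟨K'.map T.subtype, ?_, ?_, ?_⟩
  · intro x hx
    refine ⟨⟨x, hXT hx⟩, hK' ?_, rfl⟩
    rw [Subgroup.mem_subgroupOf]; exact hx
  · rintro _ ⟨x, -, rfl⟩
    exact x.2
  · rw [Subgroup.card_map_of_injective T.subtype_injective, hK'card, hk, pow_succ]

end Cfsg.Agent.Lib.Helper40.Chief
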