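import Mathlib
import Cfsg.Agent.Lib.Helper40.Chief0
import Cfsg.Agent.Lib.Helper40.ChiefU
import Cfsg.Agent.Lib.Helper41.Crit

set_option autoImplicit false

/-! The `p`-central lemma: in a `p`-group (`p` odd) whose elements of order `p` are central,
`x ^ p = y ^ p` implies `(x⁻¹ * y) ^ p = 1` (helper40; S1895 J1). -/

namespace Cfsg.Agent.Lib.Helper40.Chief

variable {G : Type*} [Group G]

theorem pcentral_pow_eq_aux [Finite G] {p : ℕ} [Fact p.Prime] (hp : p ≠ 2) :
    ∀ (N : ℕ) (T : Subgroup G), Nat.card T ≤ N → IsPGroup p T →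
      (∀ x ∈ T, x ^ p = 1 → ∀ t ∈ T, x * t = t * x) →
      ∀ x ∈ T, ∀ y ∈ T, x ^ p = y ^ p → (x⁻¹ * y) ^ p = 1 := by
  have hpp : p.Prime := Fact.out
  have hodd : Odd p := hpp.odd_of_ne_two hp
  intro N
  induction N with
  | zero =>
    intro T hT
    exfalso
    have := Nat.card_pos (α := T)
    omega
  | succ N ih =>
    intro T hTN hT hc x hx y hy hxy
    by_cases hcomm : x * y = y * x
    · have h1 : Commute x⁻¹ y := (Commute.inv_left (show Commute x y from hcomm))
      rw [h1.mul_pow, inv_pow, hxy, inv_mul_cancel]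
    · have hne : Subgroup.zpowers y ≠ T := by
        intro h
        have h1 : x ∈ Subgroup.zpowers y := h ▸ hx
        obtain ⟨k, rfl⟩ := Subgroup.mem_zpowers_iff.mp h1
        exact hcomm ((Commute.zpow_left (Commute.refl y) k).eq)
      obtain ⟨M, hyM, hMT, hMcard⟩ :=
        exists_index_p_above hT ((Subgroup.zpowers_le).mpr hy) hne
      obtain ⟨hMnorm, -⟩ := index_p_normal_pow hT hMT hMcard
      have hyM' : y ∈ M := hyM (Subgroup.mem_zpowers y)
      have hxyM : x⁻¹ * y * x ∈ M := by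
        have := hMnorm x⁻¹ (T.inv_mem hx) y hyM'
        simpa using this
      have hMlt : Nat.card M ≤ N := by
        have h2 : Nat.card M * 2 ≤ Nat.card M * p := Nat.mul_le_mul_left _ hpp.two_le
        have h3 := Nat.card_pos (α := M)
        omega
      have hcM : ∀ z ∈ M, z ^ p = 1 → ∀ t ∈ M, z * t = t * z :=
        fun z hz hzp t ht => hc z (hMT hz) hzp t (hMT ht)
      have hpw : y ^ p = (x⁻¹ * y * x) ^ p := by
        have e1 : x⁻¹ * y * x = x⁻¹ * y * x⁻¹⁻¹ := by rw [inv_inv]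
        rw [e1, conj_pow, ← hxy, inv_inv]
        group
      have h1 := ih M hMlt (hT.to_le hMT) hcM y hyM' (x⁻¹ * y * x) hxyM hpw
      set c : G := y⁻¹ * (x⁻¹ * y * x) with hcdef
      have hcT : c ∈ T := T.mul_mem (T.inv_mem hy) (hMT hxyM)
      have hcx : Commute c x := hc c hcT h1 x hx
      have hcy : Commute c y := hc c hcT h1 y hy
      have hyx : y * x = x * y * c := by rw [hcdef]; group
      have e1 : x⁻¹ * y = y * x⁻¹ * c := by
        calc x⁻¹ * y = x⁻¹ * (y * x) * x⁻¹ := by group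
          _ = x⁻¹ * (x * y * c) * x⁻¹ := by rw [hyx]
          _ = y * (c * x⁻¹) := by group
          _ = y * (x⁻¹ * c) := by rw [(hcx.inv_right).eq]
          _ = y * x⁻¹ * c := by group
      have hyx' : y * x⁻¹ = x⁻¹ * y * c⁻¹ := by rw [e1]; group
      have h2 := Cfsg.Agent.Lib.Helper41.mul_pow_central x⁻¹ y c⁻¹ hyx'
        (hcx.inv_left.inv_right) (hcy.inv_left) p
      obtain ⟨k, hk⟩ := hodd
      have h3 : p * (p - 1) / 2 = p * k := by
        have : p - 1 = 2 * k := by omega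
        rw [this, ← mul_assoc, mul_comm p 2, mul_assoc, Nat.mul_div_cancel_left _ (by norm_num)]
      rw [h2, inv_pow, hxy, inv_mul_cancel, one_mul, h3, pow_mul, inv_pow, h1, inv_one, one_pow]

theorem pcentral_pow_eq [Finite G] {p : ℕ} [Fact p.Prime] (hp : p ≠ 2) (T : Subgroup G)
    (hT : IsPGroup p T) (hc : ∀ x ∈ T, x ^ p = 1 → ∀ t ∈ T, x * t = t * x) :
    ∀ x ∈ T, ∀ y ∈ T, x ^ p = y ^ p → (x⁻¹ * y) ^ p = 1 :=
  pcentral_pow_eq_aux hp (Nat.card T) T le_rfl hT hc

theorem pcentral_relIndex_le [Finite G] {p : ℕ} [Fact p.Prime] (hp : p ≠ 2) (T : Subgroup G)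
    (hT : IsPGroup p T) (hc : ∀ x ∈ T, x ^ p = 1 → ∀ t ∈ T, x * t = t * x)
    (A : Subgroup G) (hA : ∀ x ∈ T, x ^ p = 1 → x ∈ A)
    (H K : Subgroup G) (hHT : H ≤ T) (hKH : K ≤ H) (hpow : ∀ x ∈ H, x ^ p ∈ K) :
    K.relIndex H ≤ Nat.card A := by
  classical
  have h1 : A.relIndex H ≤ Nat.card K := by
    refine relIndex_le_card_of_fiber A H
      (fun g => if h : g ∈ H then (⟨g ^ p, hpow g h⟩ : ↥K) else 1) ?_
    intro g hg h hh hgh
    simp only [dif_pos hg, dif_pos hh] at hgh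
    have h2 : g ^ p = h ^ p := congrArg Subtype.val hgh
    have h3 := pcentral_pow_eq hp T hT hc g (hHT hg) h (hHT hh) h2
    exact hA _ (T.mul_mem (T.inv_mem (hHT hg)) (hHT hh)) h3
  have h2 : Nat.card (A ⊓ H : Subgroup G) * A.relIndex H = Nat.card H := by
    have := card_mul_relIndex' (inf_le_right : A ⊓ H ≤ H)
    rwa [Subgroup.inf_relIndex_right] at this
  have h3 : Nat.card K * K.relIndex H = Nat.card H := card_mul_relIndex' hKH
  have h4 : Nat.card (A ⊓ H : Subgroup G) ≤ Nat.card A :=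
    Nat.card_mono (Set.toFinite _) (inf_le_left : A ⊓ H ≤ A)
  have h5 : Nat.card K * K.relIndex H ≤ Nat.card K * Nat.card A := by
    rw [h3, ← h2, mul_comm (Nat.card K)]
    exact Nat.mul_le_mul h4 h1
  exact Nat.le_of_mul_le_mul_left h5 Nat.card_pos

end Cfsg.Agent.Lib.Helper40.Chief
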