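import Mathlib
import Cfsg.Agent.Lib.Helper40.Chief0
import Cfsg.Agent.Lib.Helper40.ChiefU

set_option autoImplicit false

/-! Chief `p`-factors have exponent `p`; central chief `p`-factors have order `p`
(helper40; S1895 J2). -/

namespace Cfsg.Agent.Lib.Helper40.Chief

open scoped commutatorElement

variable {G : Type*} [Group G]

theorem chief_pow_mem [Finite G] {p : ℕ} [Fact p.Prime] {H K : Subgroup G} (h : IsChief H K)
    {n : ℕ} (hn : K.relIndex H = p ^ n) : ∀ x ∈ H, x ^ p ∈ K := by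
  have hpp : p.Prime := Fact.out
  obtain ⟨hHn, hKn, hKH, hch⟩ := h
  haveI := hHn
  haveI := hKn
  set π := QuotientGroup.mk' K with hπ
  have hker : π.ker = K := QuotientGroup.ker_mk' K
  have hcard : Nat.card (H.map π) = p ^ n := by
    have h0 := Subgroup.relIndex_ker H π
    rw [hker] at h0
    rw [← hn, ← h0]
  have hHbp : IsPGroup p (H.map π) := IsPGroup.of_card hcard
  have hn0 : n ≠ 0 := by
    rintro rfl
    rw [pow_zero, Subgroup.relIndex_eq_one] at hn
    exact not_le_of_gt hKH hn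
  have hHbne : (⊥ : Subgroup (G ⧸ K)) ≠ H.map π := by
    intro h0
    rw [← h0, Subgroup.card_bot] at hcard
    have : 1 < p ^ n := Nat.one_lt_pow hn0 hpp.one_lt
    omega
  obtain ⟨Mb, -, hMbH, hMbcard⟩ := exists_index_p_above hHbp bot_le hHbne
  obtain ⟨-, hMbpow⟩ := index_p_normal_pow hHbp hMbH hMbcard
  -- the preimage `M`
  set M : Subgroup G := Mb.comap π ⊓ H with hM
  have hKM : K ≤ M := by
    refine le_inf ?_ hKH.le
    have h0 := Subgroup.ker_le_comap π Mb
    rwa [hker] at h0
  have hMne : M ≠ H := by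
    intro h0
    have h1 : H.map π ≤ Mb := by
      rintro _ ⟨x, hx, rfl⟩
      have : x ∈ M := by rw [h0]; exact hx
      exact (Subgroup.mem_inf.mp this).1
    have h2 := Nat.card_mono (Set.toFinite _) h1
    have h3 := Nat.card_pos (α := Mb)
    have h4 : Nat.card Mb * 2 ≤ Nat.card Mb * p := Nat.mul_le_mul_left _ hpp.two_le
    change Nat.card (H.map π) ≤ Nat.card Mb at h2
    omega
  have hMpow : ∀ x ∈ H, x ^ p ∈ M := by
    intro x hx
    refine Subgroup.mem_inf.mpr ⟨?_, H.pow_mem hx p⟩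
    rw [Subgroup.mem_comap, map_pow]
    exact hMbpow _ ⟨x, hx, rfl⟩
  -- the subgroup generated by `p`-th powers
  set S : Set G := {y | ∃ x ∈ H, y = x ^ p} with hS
  have hSH : S ⊆ H := by
    rintro _ ⟨x, hx, rfl⟩
    exact H.pow_mem hx p
  have hNC : Subgroup.normalClosure S ≤ M := by
    rw [Subgroup.normalClosure, Subgroup.closure_le]
    intro y hy
    obtain ⟨a, ⟨x, hx, rfl⟩, hconj⟩ := Group.mem_conjugatesOfSet_iff.mp hy
    obtain ⟨c, hc⟩ := isConj_iff.mp hconj
    rw [← hc, ← conj_pow]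
    exact hMpow _ (hHn.conj_mem x hx c)
  have hWn : (K ⊔ Subgroup.normalClosure S).Normal := inferInstance
  rcases hch (K ⊔ Subgroup.normalClosure S) hWn le_sup_left
    (sup_le hKH.le (Subgroup.normalClosure_le_normal hSH)) with h1 | h1
  · intro x hx
    rw [← h1]
    exact Subgroup.mem_sup_right (Subgroup.subset_normalClosure ⟨x, hx, rfl⟩)
  · exfalso
    apply hMne
    apply le_antisymm inf_le_right
    exact (le_of_eq h1.symm).trans (sup_le hKM hNC)

theorem chief_central_index [Finite G] {p : ℕ} [Fact p.Prime] {H K : Subgroup G}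
    (h : IsChief H K) {n : ℕ} (hn : K.relIndex H = p ^ n)
    (hc : ∀ g : G, ∀ x ∈ H, ⁅g, x⁆ ∈ K) : K.relIndex H = p := by
  classical
  have hpp : p.Prime := Fact.out
  have hpw := chief_pow_mem h hn
  obtain ⟨hHn, hKn, hKH, hch⟩ := h
  haveI := hHn
  haveI := hKn
  have hn0 : n ≠ 0 := by
    rintro rfl
    rw [pow_zero, Subgroup.relIndex_eq_one] at hn
    exact not_le_of_gt hKH hn
  obtain ⟨x, hxH, hxK⟩ := SetLike.exists_of_lt hKH
  have hLH : K ⊔ Subgroup.zpowers x ≤ H := sup_le hKH.le ((Subgroup.zpowers_le).mpr hxH)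
  have hLn : (K ⊔ Subgroup.zpowers x).Normal := by
    refine ⟨fun l hl g => ?_⟩
    have h1 : g * l * g⁻¹ = ⁅g, l⁆ * l := by
      rw [commutatorElement_def]; group
    rw [h1]
    exact Subgroup.mul_mem _ (Subgroup.mem_sup_left (hc g l (hLH hl))) hl
  have hL : K ⊔ Subgroup.zpowers x = H := by
    rcases hch _ hLn le_sup_left hLH with h1 | h1
    · exfalso
      apply hxK
      rw [← h1]
      exact Subgroup.mem_sup_right (Subgroup.mem_zpowers x)
    · exact h1
  have hle : K.relIndex H ≤ p := by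
    rw [← hL, Subgroup.relIndex_sup_left]
    haveI : NeZero p := ⟨hpp.ne_zero⟩
    have h1 : K.relIndex (Subgroup.zpowers x) ≤ Nat.card (ZMod p) := by
      refine relIndex_le_card_of_fiber K (Subgroup.zpowers x)
        (fun g => if hg : g ∈ Subgroup.zpowers x then
          ((Classical.choose (Subgroup.mem_zpowers_iff.mp hg) : ℤ) : ZMod p) else 0) ?_
      intro g hg g' hg' hgg'
      simp only [dif_pos hg, dif_pos hg'] at hgg'
      have e1 := Classical.choose_spec (Subgroup.mem_zpowers_iff.mp hg)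
      have e2 := Classical.choose_spec (Subgroup.mem_zpowers_iff.mp hg')
      obtain ⟨m, hm⟩ := (ZMod.intCast_eq_intCast_iff_dvd_sub _ _ p).mp hgg'
      have e3 : g⁻¹ * g' = (x ^ p) ^ m := by
        rw [← e1, ← e2, ← zpow_neg, ← zpow_add, ← zpow_natCast, ← zpow_mul, ← hm]
        congr 1
        ring
      rw [e3]
      exact K.zpow_mem (hpw x hxH) m
    rwa [Nat.card_zmod] at h1
  rw [hn] at hle ⊢
  have h1 : n ≤ 1 := (Nat.pow_le_pow_iff_right hpp.one_lt).mp (by simpa using hle)
  have h2 : n = 1 := by omega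
  rw [h2, pow_one]

end Cfsg.Agent.Lib.Helper40.Chief
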