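import Mathlib
import Cfsg.Agent.Lib.Helper40.Chief0
import Cfsg.Agent.Lib.Helper40.ChiefU
import Cfsg.Agent.Lib.Helper41.CritSub

set_option autoImplicit false

/-! A normal subgroup `D` of order `p²`: `p²` does not divide `|G : C_G(D)|`
(helper40; S1895 J4). -/

namespace Cfsg.Agent.Lib.Helper40.Chief

variable {G : Type*} [Group G]

/-- A nontrivial normal subgroup inside a `p`-subgroup `R` contains a nontrivial element
centralized by `R`. -/
theorem exists_central_in_normal [Finite G] {p : ℕ} [Fact p.Prime] (R : Subgroup G)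
    (hR : IsPGroup p R) (D : Subgroup G) [D.Normal] (hDR : D ≤ R) (hD : D ≠ ⊥) :
    ∃ z ∈ D, z ≠ 1 ∧ ∀ r ∈ R, z * r = r * z := by
  have hDne : D.subgroupOf R ≠ ⊥ := by
    intro h0
    apply hD
    rw [eq_bot_iff]
    intro x hx
    have : (⟨x, hDR hx⟩ : ↥R) ∈ D.subgroupOf R := by
      rw [Subgroup.mem_subgroupOf]; exact hx
    rw [h0, Subgroup.mem_bot] at this
    have := congrArg Subtype.val this
    simpa using this
  haveI : (D.subgroupOf R).Normal := inferInstance
  have h3 := Cfsg.Agent.Lib.Helper41.normal_inf_center_ne_bot p hR (D.subgroupOf R) hDne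
  obtain ⟨z, hz1⟩ := (Subgroup.ne_bot_iff_exists_ne_one).mp h3
  have hz' : (z : ↥R) ∈ D.subgroupOf R ⊓ Subgroup.center ↥R := z.2
  obtain ⟨hzD, hzc⟩ := Subgroup.mem_inf.mp hz'
  rw [Subgroup.mem_subgroupOf] at hzD
  refine ⟨((z : ↥R) : G), hzD, ?_, ?_⟩
  · intro h
    apply hz1
    apply Subtype.ext
    apply Subtype.ext
    exact h
  · intro r hr
    have := Subgroup.mem_center_iff.mp hzc ⟨r, hr⟩
    have h4 := congrArg Subtype.val this
    simpa using h4.symm

/-- In a `p`-subgroup `P` containing the normal subgroup `D` of order `p²`, the centralizer of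
`D` has index at most `p`. -/
theorem relIndex_centralizer_le [Finite G] {p : ℕ} [Fact p.Prime] (D : Subgroup G)
    [hDn : D.Normal] (hD : Nat.card D = p ^ 2) (P : Subgroup G) (hP : IsPGroup p P)
    (hDP : D ≤ P) : (Subgroup.centralizer (D : Set G)).relIndex P ≤ p := by
  classical
  have hpp : p.Prime := Fact.out
  have hDne : D ≠ ⊥ := by
    rintro rfl
    rw [Subgroup.card_bot] at hD
    have : 1 < p ^ 2 := Nat.one_lt_pow (by norm_num) hpp.one_lt
    omega
  obtain ⟨z, hzD, hz1, hzc⟩ := exists_central_in_normal P hP D hDP hDne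
  by_cases hzp : Subgroup.zpowers z = D
  · have hle : P ≤ Subgroup.centralizer (D : Set G) := by
      intro g hg
      rw [Subgroup.mem_centralizer_iff]
      intro x hx
      rw [SetLike.mem_coe, ← hzp] at hx
      obtain ⟨k, rfl⟩ := Subgroup.mem_zpowers_iff.mp hx
      exact (Commute.zpow_left (show Commute z g from hzc g hg) k).eq
    rw [(Subgroup.relIndex_eq_one).mpr hle]
    exact hpp.one_lt.le
  · have hzle : Subgroup.zpowers z ≤ D := (Subgroup.zpowers_le).mpr hzD
    obtain ⟨d, hdD, hdz⟩ := SetLike.exists_of_lt (lt_of_le_of_ne hzle hzp)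
    have hd1 : d ≠ 1 := by
      rintro rfl
      exact hdz (Subgroup.one_mem _)
    -- `D = ⟨z, d⟩`
    have hE : Subgroup.closure {z, d} = D := by
      have hED : Subgroup.closure {z, d} ≤ D := by
        rw [Subgroup.closure_le]
        rintro x (rfl | hx)
        · exact hzD
        · rw [Set.mem_singleton_iff] at hx; rw [hx]; exact hdD
      have hzE : Subgroup.zpowers z < Subgroup.closure {z, d} := by
        refine lt_of_le_of_ne ((Subgroup.zpowers_le).mpr (Subgroup.subset_closure (by simp))) ?_
        intro h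
        apply hdz
        rw [h]
        exact Subgroup.subset_closure (by simp)
      obtain ⟨i, hi2, hi⟩ := (Nat.dvd_prime_pow hpp).mp (hD ▸ Subgroup.card_dvd_of_le hED)
      obtain ⟨j, hj2, hj⟩ := (Nat.dvd_prime_pow hpp).mp (hD ▸ Subgroup.card_dvd_of_le hzle)
      have hj0 : j ≠ 0 := by
        rintro rfl
        rw [pow_zero, Nat.card_zpowers, orderOf_eq_one_iff] at hj
        exact hz1 hj
      have hlt : Nat.card (Subgroup.zpowers z) < Nat.card (Subgroup.closure {z, d}) := by
        by_contra hcon
        push Not at hcon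
        exact hzE.ne (Subgroup.eq_of_le_of_card_ge hzE.le hcon)
      rw [hi, hj] at hlt
      have hji : j < i := (Nat.pow_lt_pow_iff_right hpp.one_lt).mp hlt
      have hi2' : i = 2 := by omega
      apply Subgroup.eq_of_le_of_card_ge hED
      rw [hD, hi, hi2']
    -- centralizing `d` inside `P` is centralizing `D`
    have hCle : Subgroup.centralizer ({d} : Set G) ⊓ P ≤ Subgroup.centralizer (D : Set G) ⊓ P := by
      intro g hg
      obtain ⟨hg1, hg2⟩ := Subgroup.mem_inf.mp hg
      refine Subgroup.mem_inf.mpr ⟨?_, hg2⟩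
      rw [← hE, Subgroup.centralizer_closure, Subgroup.mem_centralizer_iff]
      rintro x (rfl | hx)
      · exact hzc g hg2
      · rw [Set.mem_singleton_iff] at hx
        rw [hx]
        exact Subgroup.mem_centralizer_iff.mp hg1 d rfl
    have hdvd : (Subgroup.centralizer (D : Set G)).relIndex P ∣
        (Subgroup.centralizer ({d} : Set G)).relIndex P := by
      rw [← Subgroup.inf_relIndex_right (Subgroup.centralizer (D : Set G)),
        ← Subgroup.inf_relIndex_right (Subgroup.centralizer ({d} : Set G))]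
      exact Subgroup.relIndex_dvd_of_le_left P hCle
    -- the orbit of `d` lies in `D \ {1}`
    have hfib : (Subgroup.centralizer ({d} : Set G)).relIndex P ≤ Nat.card {x : ↥D // x ≠ 1} := by
      refine relIndex_le_card_of_fiber _ _
        (fun g => (⟨⟨g * d * g⁻¹, hDn.conj_mem d hdD g⟩, by
          intro h
          apply hd1
          have h1 : g * d * g⁻¹ = 1 := congrArg Subtype.val h
          have h2 : d = g⁻¹ * (g * d * g⁻¹) * g := by group
          rw [h2, h1]; group⟩ : {x : ↥D // x ≠ 1})) ?_
      intro g _ h _ hgh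
      simp only [Subtype.mk.injEq] at hgh
      rw [Subgroup.mem_centralizer_iff]
      intro x hx
      rw [Set.mem_singleton_iff] at hx
      rw [hx]
      calc d * (g⁻¹ * h) = g⁻¹ * (g * d * g⁻¹) * h := by group
        _ = g⁻¹ * (h * d * h⁻¹) * h := by rw [hgh]
        _ = g⁻¹ * h * d := by group
    have hcardlt : Nat.card {x : ↥D // x ≠ 1} < p ^ 2 := by
      rw [← hD]
      haveI : Fintype ↥D := Fintype.ofFinite _
      rw [Nat.card_eq_fintype_card, Nat.card_eq_fintype_card]
      exact Fintype.card_lt_of_injective_of_notMem (b := (1 : ↥D)) (fun x => x.1)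
        Subtype.coe_injective (by rintro ⟨x, hx⟩; exact x.2 hx)
    obtain ⟨a, ha⟩ := (IsPGroup.iff_card).mp hP
    obtain ⟨i, -, hi⟩ := (Nat.dvd_prime_pow hpp).mp
      (ha ▸ Subgroup.relIndex_dvd_card (Subgroup.centralizer ({d} : Set G)) P)
    have hi1 : i < 2 := by
      have : p ^ i < p ^ 2 := by rw [← hi]; exact lt_of_le_of_lt hfib hcardlt
      exact (Nat.pow_lt_pow_iff_right hpp.one_lt).mp this
    have hle1 : (Subgroup.centralizer ({d} : Set G)).relIndex P ≤ p := by
      rw [hi]
      calc p ^ i ≤ p ^ 1 := Nat.pow_le_pow_right hpp.pos (by omega)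
        _ = p := pow_one p
    have hpos : 0 < (Subgroup.centralizer ({d} : Set G)).relIndex P := by
      rw [hi]; exact Nat.pow_pos hpp.pos
    exact (Nat.le_of_dvd hpos hdvd).trans hle1

theorem not_sq_dvd_index_centralizer [Finite G] {p : ℕ} [Fact p.Prime] (D : Subgroup G)
    [D.Normal] (hD : Nat.card D = p ^ 2) :
    ¬ p ^ 2 ∣ (Subgroup.centralizer (D : Set G)).index := by
  have hpp : p.Prime := Fact.out
  obtain ⟨P⟩ : Nonempty (Sylow p G) := inferInstance
  have hDp : IsPGroup p D := IsPGroup.of_card hD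
  have hDP : D ≤ (P : Subgroup G) := by
    have h1 : IsPGroup p ((P : Subgroup G) ⊔ D : Subgroup G) :=
      IsPGroup.to_sup_of_normal_right P.isPGroup' hDp
    have h2 := P.is_maximal' h1 le_sup_left
    rw [← h2]
    exact le_sup_right
  have hclaim := relIndex_centralizer_le D hD (P : Subgroup G) P.isPGroup' hDP
  intro hdvd
  have h1 : (Subgroup.centralizer (D : Set G)).relIndex ((P : Subgroup G) ⊔
      Subgroup.centralizer (D : Set G)) * ((P : Subgroup G) ⊔
      Subgroup.centralizer (D : Set G)).index = (Subgroup.centralizer (D : Set G)).index :=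
    Subgroup.relIndex_mul_index le_sup_right
  rw [Subgroup.relIndex_sup_right] at h1
  have h2 : ¬ p ∣ ((P : Subgroup G) ⊔ Subgroup.centralizer (D : Set G)).index := by
    intro h
    exact P.not_dvd_index (h.trans (Subgroup.index_dvd_of_le le_sup_left))
  have h3 : (p ^ 2).Coprime ((P : Subgroup G) ⊔ Subgroup.centralizer (D : Set G)).index :=
    Nat.Coprime.pow_left 2 ((Nat.Prime.coprime_iff_not_dvd hpp).mpr h2)
  rw [← h1] at hdvd
  have h4 : p ^ 2 ∣ (Subgroup.centralizer (D : Set G)).relIndex (P : Subgroup G) :=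
    h3.dvd_of_dvd_mul_right hdvd
  have hpos : 0 < (Subgroup.centralizer (D : Set G)).relIndex (P : Subgroup G) :=
    Nat.pos_of_ne_zero Subgroup.index_ne_zero_of_finite
  have h5 := Nat.le_of_dvd hpos h4
  have h6 : p < p ^ 2 := by
    calc p = p ^ 1 := (pow_one p).symm
      _ < p ^ 2 := Nat.pow_lt_pow_right hpp.one_lt (by norm_num)
  omega

end Cfsg.Agent.Lib.Helper40.Chief
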