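import Mathlib
import Cfsg.Agent.Lib.Helper40.Chief0
import Cfsg.Agent.Lib.Helper40.ChiefU
import Cfsg.Agent.Lib.Helper40.Chief4

set_option autoImplicit false

/-! A normal nonabelian subgroup of order `p³` (helper40; S1895 J5). -/

namespace Cfsg.Agent.Lib.Helper40.Chief

open scoped commutatorElement

variable {G : Type*} [Group G]

theorem nonab_aut_bound [Finite G] {p : ℕ} [Fact p.Prime] (D : Subgroup G) [hDn : D.Normal]
    (hD : Nat.card D = p ^ 3)
    (hZ : Nat.card (D ⊓ Subgroup.centralizer (D : Set G) : Subgroup G) = p) (a b : G)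
    (hgen : Subgroup.closure {a, b} = D) :
    ∃ S : Subgroup G, S.Normal ∧ Subgroup.centralizer (D : Set G) ≤ S ∧ ¬ p ^ 2 ∣ S.index ∧
      (Subgroup.centralizer (D : Set G)).relIndex S ≤ p ^ 2 := by
  classical
  have hpp : p.Prime := Fact.out
  set Z : Subgroup G := D ⊓ Subgroup.centralizer (D : Set G) with hZdef
  haveI hZn : Z.Normal := inferInstance
  set π := QuotientGroup.mk' Z with hπ
  have hsurj : Function.Surjective π := QuotientGroup.mk'_surjective Z
  have hker : π.ker = Z := QuotientGroup.ker_mk' Z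
  haveI hDbn : (D.map π).Normal := hDn.map π hsurj
  have hDbcard : Nat.card (D.map π) = p ^ 2 := by
    have h1 : π.ker.relIndex D = Nat.card (D.map π) := Subgroup.relIndex_ker D π
    rw [← h1, hker]
    have h2 := card_mul_relIndex' (inf_le_left : Z ≤ D)
    rw [hZ, hD] at h2
    have h3 : p * Z.relIndex D = p * p ^ 2 := by rw [h2]; ring
    exact Nat.eq_of_mul_eq_mul_left hpp.pos h3
  have hJ4 := not_sq_dvd_index_centralizer (D.map π) hDbcard
  have haD : a ∈ D := by rw [← hgen]; exact Subgroup.subset_closure (by simp)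
  have hbD : b ∈ D := by rw [← hgen]; exact Subgroup.subset_closure (by simp)
  have hSmem : ∀ g ∈ (Subgroup.centralizer ((D.map π : Subgroup (G ⧸ Z)) : Set (G ⧸ Z))).comap π,
      ∀ d ∈ D, ⁅g, d⁆ ∈ Z := by
    intro g hg d hd
    rw [Subgroup.mem_comap, Subgroup.mem_centralizer_iff] at hg
    have h1 := hg (π d) ⟨d, hd, rfl⟩
    rw [← hker, MonoidHom.mem_ker, map_commutatorElement, commutatorElement_eq_one_iff_commute]
    exact h1.symm
  refine ⟨(Subgroup.centralizer ((D.map π : Subgroup (G ⧸ Z)) : Set (G ⧸ Z))).comap π,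
    inferInstance, ?_, ?_, ?_⟩
  · intro g hg
    rw [Subgroup.mem_comap, Subgroup.mem_centralizer_iff]
    rintro _ ⟨d, hd, rfl⟩
    rw [← map_mul, ← map_mul, Subgroup.mem_centralizer_iff.mp hg d hd]
  · rw [Subgroup.index_comap_of_surjective _ hsurj]
    exact hJ4
  · have hcardZZ : Nat.card (↥Z × ↥Z) = p ^ 2 := by
      rw [Nat.card_prod, hZ, sq]
    rw [← hcardZZ]
    refine relIndex_le_card_of_fiber _ _
      (fun g => if h : g ∈ (Subgroup.centralizer
          ((D.map π : Subgroup (G ⧸ Z)) : Set (G ⧸ Z))).comap π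
        then ((⟨⁅g, a⁆, hSmem g h a haD⟩ : ↥Z), (⟨⁅g, b⁆, hSmem g h b hbD⟩ : ↥Z)) else 1) ?_
    intro g hg h hh hgh
    simp only [dif_pos hg, dif_pos hh, Prod.mk.injEq, Subtype.mk.injEq] at hgh
    obtain ⟨h1, h2⟩ := hgh
    have hcomm : ∀ x : G, ⁅g, x⁆ = ⁅h, x⁆ → x * (g⁻¹ * h) = (g⁻¹ * h) * x := by
      intro x hx
      rw [commutatorElement_def, commutatorElement_def] at hx
      have e1 : g * x * g⁻¹ = h * x * h⁻¹ := by
        have := congrArg (fun t => t * x) hx
        simpa using this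
      calc x * (g⁻¹ * h) = g⁻¹ * (g * x * g⁻¹) * h := by group
        _ = g⁻¹ * (h * x * h⁻¹) * h := by rw [e1]
        _ = (g⁻¹ * h) * x := by group
    rw [← hgen, Subgroup.centralizer_closure, Subgroup.mem_centralizer_iff]
    intro x hx
    rcases hx with rfl | hx
    · exact hcomm _ h1
    · rw [Set.mem_singleton_iff] at hx
      rw [hx]
      exact hcomm _ h2

end Cfsg.Agent.Lib.Helper40.Chief
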