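import Mathlib
import Cfsg.Agent.Lib.Helper40.Chief0
import Cfsg.Agent.Lib.Helper40.ChiefU
import Cfsg.Agent.Lib.Helper40.Chief1

set_option autoImplicit false

/-! A normal `p`-central `p`-subgroup with `Ω₁` of order `p` is cyclic, so commutators of `G`
centralize it (helper40; S1895 J6). -/

namespace Cfsg.Agent.Lib.Helper40.Chief

open scoped commutatorElement

variable {G : Type*} [Group G]

/-- A `p`-central `p`-subgroup (`p` odd) with `Ω₁` of order `p` is cyclic. -/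
theorem pcentral_cyclic [Finite G] {p : ℕ} [Fact p.Prime] (hp : p ≠ 2) (C : Subgroup G)
    (hC : IsPGroup p C) (hc : ∀ x ∈ C, x ^ p = 1 → ∀ t ∈ C, x * t = t * x)
    (A : Subgroup G) (hA : ∀ x ∈ C, x ^ p = 1 → x ∈ A) (hAcard : Nat.card A = p) :
    ∃ c ∈ C, Subgroup.zpowers c = C := by
  have hpp : p.Prime := Fact.out
  by_cases hbot : C = ⊥
  · exact ⟨1, C.one_mem, by rw [hbot]; simp⟩
  set W : Subgroup G := Subgroup.closure {y | ∃ x ∈ C, y = x ^ p} with hWdef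
  have hWC : W ≤ C := by
    rw [hWdef, Subgroup.closure_le]
    rintro _ ⟨x, hx, rfl⟩
    exact C.pow_mem hx p
  have hW : W.relIndex C ≤ p := by
    rw [← hAcard]
    exact pcentral_relIndex_le hp C hC hc A hA C W le_rfl hWC
      (fun x hx => Subgroup.subset_closure ⟨x, hx, rfl⟩)
  have hWM : ∀ M : Subgroup G, M ≤ C → Nat.card M * p = Nat.card C → W = M := by
    intro M hMC hMcard
    obtain ⟨-, hMpow⟩ := index_p_normal_pow hC hMC hMcard
    have hWleM : W ≤ M := by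
      rw [hWdef, Subgroup.closure_le]
      rintro _ ⟨x, hx, rfl⟩
      exact hMpow x hx
    apply Subgroup.eq_of_le_of_card_ge hWleM
    have h1 := card_mul_relIndex' hWC
    have h2 : Nat.card M * p ≤ Nat.card W * p := by
      rw [hMcard, ← h1]
      exact Nat.mul_le_mul_left _ hW
    exact Nat.le_of_mul_le_mul_right h2 hpp.pos
  have hex : ∀ X : Subgroup G, X ≤ C → X ≠ C → X ≤ W := by
    intro X hXC hne
    obtain ⟨M, hXM, hMC, hMcard⟩ := exists_index_p_above hC hXC hne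
    rw [hWM M hMC hMcard]
    exact hXM
  have hWne : W ≠ C := by
    obtain ⟨M, -, hMC, hMcard⟩ := exists_index_p_above hC (bot_le : (⊥ : Subgroup G) ≤ C)
      (Ne.symm hbot)
    rw [hWM M hMC hMcard]
    intro h
    rw [h] at hMcard
    have h1 := Nat.card_pos (α := C)
    have h2 : Nat.card C * 2 ≤ Nat.card C * p := Nat.mul_le_mul_left _ hpp.two_le
    omega
  obtain ⟨c, hcC, hcW⟩ := SetLike.exists_of_lt (lt_of_le_of_ne hWC hWne)
  refine ⟨c, hcC, ?_⟩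
  by_contra hne
  exact hcW (hex _ ((Subgroup.zpowers_le).mpr hcC) hne (Subgroup.mem_zpowers c))

theorem pcentral_cyclic_comm [Finite G] {p : ℕ} [Fact p.Prime] (hp : p ≠ 2) (C : Subgroup G)
    [hCn : C.Normal] (hC : IsPGroup p C) (hc : ∀ x ∈ C, x ^ p = 1 → ∀ t ∈ C, x * t = t * x)
    (A : Subgroup G) (hA : ∀ x ∈ C, x ^ p = 1 → x ∈ A) (hAcard : Nat.card A = p) :
    ∀ g h : G, ∀ x ∈ C, ⁅g, h⁆ * x = x * ⁅g, h⁆ := by
  obtain ⟨c, hcC, hcz⟩ := pcentral_cyclic hp C hC hc A hA hAcard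
  have hconj : ∀ g : G, ∃ i : ℤ, c ^ i = g * c * g⁻¹ := by
    intro g
    have h1 : g * c * g⁻¹ ∈ Subgroup.zpowers c := by
      rw [hcz]; exact hCn.conj_mem c hcC g
    exact Subgroup.mem_zpowers_iff.mp h1
  have key : ∀ g h : G, (g * h) * c * (g * h)⁻¹ = (h * g) * c * (h * g)⁻¹ := by
    intro g h
    obtain ⟨i, hi⟩ := hconj g
    obtain ⟨j, hj⟩ := hconj h
    have e1 : (g * h) * c * (g * h)⁻¹ = g * (h * c * h⁻¹) * g⁻¹ := by group
    have e2 : (h * g) * c * (h * g)⁻¹ = h * (g * c * g⁻¹) * h⁻¹ := by group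
    rw [e1, e2, ← hj, ← hi, ← conj_zpow, ← conj_zpow, ← hi, ← hj, ← zpow_mul, ← zpow_mul,
      mul_comm]
  have hcomm : ∀ g h : G, ⁅g, h⁆ * c = c * ⁅g, h⁆ := by
    intro g h
    rw [commutatorElement_def]
    calc g * h * g⁻¹ * h⁻¹ * c
        = (g * h) * ((g⁻¹ * h⁻¹) * c * (g⁻¹ * h⁻¹)⁻¹) * (g * h)⁻¹ * (g * h * g⁻¹ * h⁻¹) := by
          group
      _ = (g * h) * ((h⁻¹ * g⁻¹) * c * (h⁻¹ * g⁻¹)⁻¹) * (g * h)⁻¹ * (g * h * g⁻¹ * h⁻¹) := by
          rw [key g⁻¹ h⁻¹]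
      _ = c * (g * h * g⁻¹ * h⁻¹) := by group
  intro g h x hx
  rw [← hcz] at hx
  obtain ⟨m, rfl⟩ := Subgroup.mem_zpowers_iff.mp hx
  exact (Commute.zpow_right (show Commute ⁅g, h⁆ c from hcomm g h) m).eq

end Cfsg.Agent.Lib.Helper40.Chief
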