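import Mathlib
import Cfsg.Prelude.Def_CaseTheorems
import Cfsg.Agent.Lib.Helper40.Chief0
import Cfsg.Agent.Lib.Helper40.ChiefU

set_option autoImplicit false

/-! Quotients by normal `p'`-subgroups: `p`-rank and chief `p`-factors (helper40; S1895 J7). -/

namespace Cfsg.Agent.Lib.Helper40.Chief

variable {G : Type*} [Group G]

theorem prankLE_quotient [Finite G] {p : ℕ} [Fact p.Prime] (N : Subgroup G) [N.Normal]
    (hN : (Nat.card N).Coprime p) (k : ℕ) (hr : Cfsg.PRankLE p k G) :
    Cfsg.PRankLE p k (G ⧸ N) := by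
  have hpp : p.Prime := Fact.out
  intro Abar hAb hAp
  set π := QuotientGroup.mk' N with hπ
  have hsurj : Function.Surjective π := QuotientGroup.mk'_surjective N
  have hker : π.ker = N := QuotientGroup.ker_mk' N
  set A' : Subgroup G := Abar.comap π with hA'
  have hNA' : N ≤ A' := by
    rw [← hker]; exact Subgroup.ker_le_comap π Abar
  -- `|Abar|` is a power of `p` dividing `|A'|`
  have hAbp : IsPGroup p Abar := by
    intro a
    refine ⟨1, ?_⟩
    rw [pow_one]
    exact Subtype.ext (by simpa using hAp a a.2)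
  obtain ⟨j, hj⟩ := (IsPGroup.iff_card).mp hAbp
  have hdvd : Nat.card Abar ∣ Nat.card A' := by
    have h1 : π.ker.relIndex A' = Nat.card (A'.map π) := Subgroup.relIndex_ker A' π
    rw [hA', Subgroup.map_comap_eq_self_of_surjective hsurj] at h1
    rw [← h1]
    exact Subgroup.relIndex_dvd_card _ _
  -- a Sylow `p`-subgroup of `A'`
  obtain ⟨P⟩ : Nonempty (Sylow p ↥A') := inferInstance
  set Q : Subgroup G := (P : Subgroup ↥A').map A'.subtype with hQ
  have hQp : IsPGroup p Q := P.isPGroup'.map A'.subtype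
  have hQA' : Q ≤ A' := by
    rintro _ ⟨x, -, rfl⟩
    exact x.2
  have hQcard : Nat.card Q = Nat.card (P : Subgroup ↥A') :=
    Subgroup.card_map_of_injective A'.subtype_injective
  have hle : Nat.card Abar ≤ Nat.card Q := by
    rw [hQcard]
    apply Nat.le_of_dvd Nat.card_pos
    rw [hj]
    apply P.pow_dvd_card_of_pow_dvd_card
    rw [← hj]
    exact hdvd
  -- `π` is injective on `Q`
  have hinj1 : ∀ x ∈ Q, π x = 1 → x = 1 := by
    intro x hx hx1
    have hxN : x ∈ N := by
      rw [← hker]; exact hx1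
    have h1 : orderOf x ∣ Nat.card N := by
      have := orderOf_dvd_natCard (⟨x, hxN⟩ : ↥N)
      rwa [Subgroup.orderOf_mk] at this
    obtain ⟨m, hm⟩ := hQp ⟨x, hx⟩
    have h2 : x ^ p ^ m = 1 := by simpa using congrArg Subtype.val hm
    have h3 : orderOf x ∣ p ^ m := orderOf_dvd_of_pow_eq_one h2
    have h4 : orderOf x = 1 :=
      Nat.Coprime.eq_one_of_dvd (Nat.Coprime.pow_right m (Nat.Coprime.coprime_dvd_left h1 hN)) h3
    exact orderOf_eq_one_iff.mp h4
  have hinj : ∀ x ∈ Q, ∀ y ∈ Q, π x = π y → x = y := by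
    intro x hx y hy hxy
    have h1 : π (x⁻¹ * y) = 1 := by rw [map_mul, map_inv, hxy, inv_mul_cancel]
    have h2 := hinj1 _ (Q.mul_mem (Q.inv_mem hx) hy) h1
    exact inv_mul_eq_one.mp h2
  have hπQ : ∀ x ∈ Q, π x ∈ Abar := fun x hx => hQA' hx
  have hQcomm : IsMulCommutative ↥Q := by
    refine ⟨⟨fun a b => Subtype.ext ?_⟩⟩
    apply hinj _ (Q.mul_mem a.2 b.2) _ (Q.mul_mem b.2 a.2)
    have h1 := hAb.is_comm.comm (⟨π a, hπQ a a.2⟩ : ↥Abar) ⟨π b, hπQ b b.2⟩
    have h2 := congrArg Subtype.val h1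
    rw [map_mul, map_mul]
    exact h2
  have hQexp : ∀ a ∈ Q, a ^ p = 1 := by
    intro a ha
    apply hinj _ (Q.pow_mem ha p) _ Q.one_mem
    rw [map_pow, map_one]
    exact hAp _ (hπQ a ha)
  exact hle.trans (hr Q hQcomm hQexp)

theorem chief_quotient [Finite G] {p : ℕ} [Fact p.Prime] (N : Subgroup G) [N.Normal]
    (hN : (Nat.card N).Coprime p) {H K : Subgroup G} (h : IsChief H K) {n : ℕ}
    (hn : K.relIndex H = p ^ n) :
    IsChief (H.map (QuotientGroup.mk' N)) (K.map (QuotientGroup.mk' N)) ∧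
      (K.map (QuotientGroup.mk' N)).relIndex (H.map (QuotientGroup.mk' N)) = p ^ n := by
  have hpp : p.Prime := Fact.out
  set π := QuotientGroup.mk' N with hπ
  have hsurj : Function.Surjective π := QuotientGroup.mk'_surjective N
  have hker : π.ker = N := QuotientGroup.ker_mk' N
  have hn0 : n ≠ 0 := by
    rintro rfl
    rw [pow_zero, Subgroup.relIndex_eq_one] at hn
    exact not_le_of_gt h.2.2.1 hn
  rcases chief_transfer h N with ⟨h1, e1⟩ | ⟨h2, e2⟩
  · exfalso
    have hdvd : p ∣ (K ⊓ N).relIndex (H ⊓ N) := by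
      rw [e1, hn]; exact dvd_pow_self p hn0
    have h3 : (K ⊓ N).relIndex (H ⊓ N) ∣ Nat.card N :=
      (Subgroup.relIndex_dvd_card _ _).trans (Subgroup.card_dvd_of_le inf_le_right)
    exact (Nat.Prime.coprime_iff_not_dvd hpp).mp hN.symm (hdvd.trans h3)
  · obtain ⟨hHn, hKn, hlt, hch⟩ := h2
    have hcm : ∀ X : Subgroup G, (X.map π).comap π = X ⊔ N := fun X => by
      rw [Subgroup.comap_map_eq, hker]
    have hNbot : N.map π = ⊥ := by
      rw [Subgroup.map_eq_bot_iff, hker]
    have hmc : ∀ X : Subgroup G, (X ⊔ N).map π = X.map π := fun X => by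
      rw [Subgroup.map_sup, hNbot, sup_bot_eq]
    refine ⟨⟨h.1.map π hsurj, h.2.1.map π hsurj, ?_, ?_⟩, ?_⟩
    · refine lt_of_le_of_ne (Subgroup.map_mono h.2.2.1.le) ?_
      intro heq
      apply hlt.ne
      rw [← hcm, ← hcm, heq]
    · intro L hL hKL hLH
      have hLc : (L.comap π).Normal := hL.comap π
      rcases hch (L.comap π) hLc (by rw [← hcm]; exact Subgroup.comap_mono hKL)
        (by rw [← hcm]; exact Subgroup.comap_mono hLH) with h3 | h3
      · left
        rw [← Subgroup.map_comap_eq_self_of_surjective hsurj L, h3, hmc]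
      · right
        rw [← Subgroup.map_comap_eq_self_of_surjective hsurj L, h3, hmc]
    · rw [Subgroup.relIndex_map_map, hker, e2, hn]

end Cfsg.Agent.Lib.Helper40.Chief
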