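import Mathlib
import Cfsg.Agent.Lib.Helper41.CritSub

set_option autoImplicit false

/-! Thompson's critical subgroup of a normal `p`-subgroup, stated inside `G` (helper40; S1895 J8). -/

namespace Cfsg.Agent.Lib.Helper40.Chief

open scoped commutatorElement

variable {G : Type*} [Group G]

theorem crit_in_group [Finite G] {p : ℕ} [Fact p.Prime] (R : Subgroup G) [R.Normal]
    (hR : IsPGroup p R) :
    ∃ C M : Subgroup G, C.Normal ∧ M.Normal ∧ M ≤ C ∧ C ≤ R ∧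
      (∀ x ∈ C, ∀ m ∈ M, x * m = m * x) ∧
      (∀ x ∈ R, (∀ c ∈ C, x * c = c * x) → x ∈ M) ∧
      (∀ x ∈ C, ∀ y ∈ R, ⁅x, y⁆ ∈ M) ∧ (∀ x ∈ C, x ^ p ∈ M) ∧
      (∀ g : G, (orderOf g).Coprime p → (∀ c ∈ C, g * c = c * g) → ∀ r ∈ R, g * r = r * g) := by
  have hinner : (MulAut.conj : ↥R →* MulAut ↥R).range ≤
      (MulAut.conjNormal : G →* MulAut ↥R).range := by
    rintro _ ⟨r, rfl⟩
    refine ⟨(r : G), ?_⟩
    ext x
    simp [MulAut.conjNormal_apply]
  obtain ⟨C0, M0, hCinv, hMinv, hMC, hCM, hcent, hcomm, hpow, hfaith⟩ :=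
    Cfsg.Agent.Lib.Helper41.exists_critical hR (MulAut.conjNormal : G →* MulAut ↥R).range hinner
  have hval : ∀ (g : G) (x : ↥R), ((MulAut.conjNormal g x : ↥R) : G) = g * x * g⁻¹ :=
    fun g x => MulAut.conjNormal_apply g x
  have hnormal : ∀ X0 : Subgroup ↥R,
      (∀ α ∈ (MulAut.conjNormal : G →* MulAut ↥R).range, ∀ x ∈ X0, α x ∈ X0) →
      (X0.map R.subtype).Normal := by
    intro X0 hX0
    refine ⟨?_⟩
    rintro _ ⟨x, hx, rfl⟩ g
    refine ⟨MulAut.conjNormal g x, hX0 _ ⟨g, rfl⟩ x hx, ?_⟩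
    exact hval g x
  refine ⟨C0.map R.subtype, M0.map R.subtype, hnormal C0 hCinv, hnormal M0 hMinv,
    Subgroup.map_mono hMC, ?_, ?_, ?_, ?_, ?_, ?_⟩
  · rintro _ ⟨x, -, rfl⟩
    exact x.2
  · rintro _ ⟨x, hx, rfl⟩ _ ⟨m, hm, rfl⟩
    have h1 := Subgroup.mem_centralizer_iff.mp (hCM hx) m hm
    have h2 := congrArg Subtype.val h1
    simpa using h2.symm
  · intro x hx hxc
    refine ⟨⟨x, hx⟩, hcent ?_, rfl⟩
    rw [Subgroup.mem_centralizer_iff]
    intro c hc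
    apply Subtype.ext
    have := hxc (c : G) ⟨c, hc, rfl⟩
    simpa using this.symm
  · rintro _ ⟨x, hx, rfl⟩ y hy
    refine ⟨⁅x, ⟨y, hy⟩⁆, hcomm x hx ⟨y, hy⟩, ?_⟩
    simp [commutatorElement_def]
  · rintro _ ⟨x, hx, rfl⟩
    exact ⟨x ^ p, hpow x hx, by simp⟩
  · intro g hg hgC r hr
    have h1 : (MulAut.conjNormal g : MulAut ↥R) = 1 := by
      apply hfaith _ ⟨g, rfl⟩
      · exact Nat.Coprime.coprime_dvd_left (orderOf_map_dvd _ g) hg
      · intro c hc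
        apply Subtype.ext
        rw [hval]
        have := hgC (c : G) ⟨c, hc, rfl⟩
        rw [this]; group
    have h2 := congrArg (fun α : MulAut ↥R => ((α ⟨r, hr⟩ : ↥R) : G)) h1
    simp only [hval, MulAut.one_apply] at h2
    calc g * r = g * r * g⁻¹ * g := by group
      _ = r * g := by rw [h2]

end Cfsg.Agent.Lib.Helper40.Chief
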