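import Mathlib
import Cfsg.Agent.Lib.Helper41.Crit

set_option autoImplicit false

/-! `Ω₁` of a class-two `p`-group (`p` odd), coprime elements centralizing it (helper40; S1895 J9). -/

namespace Cfsg.Agent.Lib.Helper40.Chief

open scoped commutatorElement

variable {G : Type*} [Group G]

theorem omega_subgroup [Finite G] {p : ℕ} [Fact p.Prime] (hp : p ≠ 2) (C M : Subgroup G)
    [C.Normal] (hMC : M ≤ C) (hCM : ∀ x ∈ C, ∀ m ∈ M, x * m = m * x)
    (hcomm : ∀ x ∈ C, ∀ y ∈ C, ⁅x, y⁆ ∈ M) :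
    ∃ D : Subgroup G, D.Normal ∧ D ≤ C ∧ (∀ x, x ∈ D ↔ x ∈ C ∧ x ^ p = 1) ∧
      (∀ x ∈ D, ∀ y ∈ D, ∀ z ∈ D, ⁅x, y⁆ * z = z * ⁅x, y⁆) := by
  have hpp : p.Prime := Fact.out
  have hodd : Odd p := hpp.odd_of_ne_two hp
  have hmul : ∀ x ∈ C, ∀ y ∈ C, x ^ p = 1 → y ^ p = 1 → (x * y) ^ p = 1 := by
    intro x hx y hy hxp hyp
    set c : G := ⁅y⁻¹, x⁻¹⁆ with hcdef
    have hcM : c ∈ M := hcomm _ (C.inv_mem hy) _ (C.inv_mem hx)
    have hc : y * x = x * y * c := by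
      rw [hcdef, commutatorElement_def]; group
    have hcx : Commute c x := (hCM x hx c hcM).symm
    have hcy : Commute c y := (hCM y hy c hcM).symm
    have h1 := Cfsg.Agent.Lib.Helper41.pow_mul_comm_central x y c hc hcy p
    rw [hyp, one_mul, mul_one] at h1
    have hcp : c ^ p = 1 := by
      have : x * 1 = x * c ^ p := by rw [mul_one]; exact h1
      exact (mul_left_cancel this).symm
    have h2 := Cfsg.Agent.Lib.Helper41.mul_pow_central x y c hc hcx hcy p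
    rw [h2, hxp, hyp, one_mul, one_mul]
    obtain ⟨k, hk⟩ := hodd
    have h3 : p * (p - 1) / 2 = p * k := by
      have : p - 1 = 2 * k := by omega
      rw [this, ← mul_assoc, mul_comm p 2, mul_assoc, Nat.mul_div_cancel_left _ (by norm_num)]
    rw [h3, pow_mul, hcp, one_pow]
  let D : Subgroup G :=
    { carrier := {x | x ∈ C ∧ x ^ p = 1}
      one_mem' := ⟨C.one_mem, one_pow _⟩
      mul_mem' := by
        rintro a b ⟨ha, hap⟩ ⟨hb, hbp⟩
        exact ⟨C.mul_mem ha hb, hmul a ha b hb hap hbp⟩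
      inv_mem' := by
        rintro a ⟨ha, hap⟩
        exact ⟨C.inv_mem ha, by rw [inv_pow, hap, inv_one]⟩ }
  have hDmem : ∀ x, x ∈ D ↔ x ∈ C ∧ x ^ p = 1 := fun x => Iff.rfl
  refine ⟨D, ⟨?_⟩, fun x hx => ((hDmem x).mp hx).1, hDmem, ?_⟩
  · intro n hn g
    obtain ⟨hn1, hn2⟩ := (hDmem n).mp hn
    refine (hDmem _).mpr ⟨‹C.Normal›.conj_mem n hn1 g, ?_⟩
    rw [conj_pow, hn2, mul_one, mul_inv_cancel]
  · intro x hx y hy z hz
    exact (hCM z ((hDmem z).mp hz).1 _ (hcomm x ((hDmem x).mp hx).1 y ((hDmem y).mp hy).1)).symm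

theorem coprime_centralizes [Finite G] {p : ℕ} [Fact p.Prime] (hp : p ≠ 2) (C : Subgroup G)
    [C.Normal] (hC : IsPGroup p C) (g : G) (hg : (orderOf g).Coprime p)
    (hgD : ∀ d ∈ C, d ^ p = 1 → g * d = d * g) : ∀ c ∈ C, g * c = c * g := by
  by_contra hcon
  have hnc : g ∉ Subgroup.centralizer (C : Set G) := by
    intro h
    apply hcon
    intro c hc
    exact (Subgroup.mem_centralizer_iff.mp h c hc).symm
  have hnorm : g ∈ Subgroup.normalizer (C : Set G) := by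
    rw [Subgroup.normalizer_eq_top]
    exact Subgroup.mem_top g
  obtain ⟨D0, hD0C, -, hD0gen, hD0exp, hD0ne⟩ :=
    Cfsg.Agent.Lib.Helper41.exists_crit_sub C hC g hnorm hg hnc
  apply hD0ne
  rw [eq_bot_iff]
  refine hD0gen.trans ?_
  rw [Subgroup.closure_le]
  rintro y ⟨d, hd, rfl⟩
  have hdp : d ^ p = 1 := by
    rcases hD0exp d hd with h | ⟨h, -⟩
    · exact h
    · exact absurd h hp
  have h1 := hgD d (hD0C hd) hdp
  show d⁻¹ * (g * d * g⁻¹) = 1
  rw [h1]; group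

theorem isPGroup_of_coprime_trivial [Finite G] {p : ℕ} [Fact p.Prime] (N : Subgroup G)
    (h : ∀ g ∈ N, (orderOf g).Coprime p → g = 1) : IsPGroup p N := by
  have hpp : p.Prime := Fact.out
  intro x
  have hn : orderOf (x : G) ≠ 0 := (orderOf_pos (x : G)).ne'
  obtain ⟨j, m, hm, hnm⟩ := Nat.exists_eq_pow_mul_and_not_dvd hn p hpp.ne_one
  refine ⟨j, ?_⟩
  have hy : (x : G) ^ p ^ j = 1 := by
    apply h _ (N.pow_mem x.2 _)
    have h1 : orderOf ((x : G) ^ p ^ j) ∣ m := by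
      apply orderOf_dvd_of_pow_eq_one
      rw [← pow_mul, ← hnm, pow_orderOf_eq_one]
    exact Nat.Coprime.coprime_dvd_left h1 ((Nat.Prime.coprime_iff_not_dvd hpp).2 hm).symm
  exact Subtype.ext (by simpa using hy)

end Cfsg.Agent.Lib.Helper40.Chief
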