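import Mathlib
import Cfsg.Prelude.Def_Local
import Cfsg.Prelude.Def_CaseTheorems
import Cfsg.Agent.Lib.Helper40.Chief0
import Cfsg.Agent.Lib.Helper40.Chief2
import Cfsg.Agent.Lib.Helper40.Chief1
import Cfsg.Agent.Lib.Helper40.Chief4
import Cfsg.Agent.Lib.Helper40.Chief5
import Cfsg.Agent.Lib.Helper40.Chief6
import Cfsg.Agent.Lib.Helper40.Chief8
import Cfsg.Agent.Lib.Helper40.Chief9
import Cfsg.Agent.Lib.Helper64.Rank2J3
import Cfsg.Agent.Lib.Helper40.HallHigman
import Cfsg.Agent.Lib.Helper41.CritSub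

set_option autoImplicit false

namespace Cfsg.Agent.Lib.Helper40.Chief

open scoped commutatorElement

open Cfsg.Agent.Lib.Helper64.Rank2 (rank_absorb exists_elemAb_sq nonab_structure)

variable {G : Type*} [Group G]

/-- A normal subgroup of order `p` contained in a normal `p`-subgroup `R` is central in `R`. -/
theorem central_of_card_prime [Finite G] {p : ℕ} [Fact p.Prime] (R : Subgroup G)
    (hR : IsPGroup p R) (D : Subgroup G) [D.Normal] (hDR : D ≤ R) (hcard : Nat.card D = p) :
    ∀ d ∈ D, ∀ r ∈ R, d * r = r * d := by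
  have hpp : p.Prime := Fact.out
  have hDne : D.subgroupOf R ≠ ⊥ := by
    intro h0
    have h1 : D ≤ ⊥ := by
      intro x hx
      have : (⟨x, hDR hx⟩ : ↥R) ∈ D.subgroupOf R := by
        rw [Subgroup.mem_subgroupOf]; exact hx
      rw [h0, Subgroup.mem_bot] at this
      have := congrArg Subtype.val this
      simpa using this
    have h2 : D = ⊥ := le_bot_iff.mp h1
    rw [h2, Subgroup.card_bot] at hcard
    exact hpp.one_lt.ne hcard
  haveI : (D.subgroupOf R).Normal := inferInstance
  have h3 := Cfsg.Agent.Lib.Helper41.normal_inf_center_ne_bot p hR (D.subgroupOf R) hDne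
  obtain ⟨z, hz1⟩ := (Subgroup.ne_bot_iff_exists_ne_one).mp h3
  have hz' : (z : ↥R) ∈ D.subgroupOf R ⊓ Subgroup.center ↥R := z.2
  obtain ⟨hzD, hzc⟩ := Subgroup.mem_inf.mp hz'
  rw [Subgroup.mem_subgroupOf] at hzD
  set z0 : G := ((z : ↥R) : G) with hz0
  have hz0ne : z0 ≠ 1 := by
    intro h
    apply hz1
    apply Subtype.ext
    apply Subtype.ext
    exact h
  have hzc' : ∀ r ∈ R, z0 * r = r * z0 := by
    intro r hr
    have := Subgroup.mem_center_iff.mp hzc ⟨r, hr⟩
    have h4 := congrArg Subtype.val this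
    simpa using h4.symm
  have hzp : Subgroup.zpowers z0 = D := by
    apply Subgroup.eq_of_le_of_card_ge
    · rw [Subgroup.zpowers_le]; exact hzD
    · rw [hcard, Nat.card_zpowers]
      have h5 : orderOf z0 ∣ p := by
        have := orderOf_dvd_natCard (⟨z0, hzD⟩ : ↥D)
        rw [hcard, Subgroup.orderOf_mk] at this
        exact this
      rcases (Nat.dvd_prime hpp).mp h5 with h6 | h6
      · exact absurd (orderOf_eq_one_iff.mp h6) hz0ne
      · exact h6.ge
  intro d hd r hr
  rw [← hzp] at hd
  obtain ⟨k, rfl⟩ := Subgroup.mem_zpowers_iff.mp hd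
  exact ((Commute.zpow_left (hzc' r hr) k)).eq

/-- **Main theorem, reduced case** `O_{p'}(G) = 1`. -/
theorem main_reduced [Finite G] {p : ℕ} [Fact p.Prime] (hp : p ≠ 2)
    (hG : Cfsg.IsPSolvable p G) (hred : Cfsg.pPrimeCore p G = ⊥) (hr : Cfsg.PRankLE p 2 G)
    {H K : Subgroup G} (h : IsChief H K) {n : ℕ} (hn : K.relIndex H = p ^ n) : n ≤ 2 := by
  have hpp : p.Prime := Fact.out
  have hpow_le : ∀ {m k : ℕ}, p ^ m ≤ p ^ k → m ≤ k := fun {m k} hmk =>
    (Nat.pow_le_pow_iff_right hpp.one_lt).mp hmk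
  set R := Cfsg.pCore p G with hRdef
  haveI hRn : R.Normal := pCore_normal' p
  have hRp : IsPGroup p R := pCore_isPGroup' p
  have hCR : Subgroup.centralizer (R : Set G) ≤ R := centralizer_pCore_le hG hred
  obtain ⟨C, M, hCn, hMn, hMC, hCleR, hCM, hcent, hcomm, hpow, hfaith⟩ := crit_in_group R hRp
  haveI := hCn
  have hCp : IsPGroup p C := hRp.to_le hCleR
  obtain ⟨D, hDn, hDC, hDmem, hDcl⟩ := omega_subgroup hp C M hMC hCM
    (fun x hx y hy => hcomm x hx y (hCleR hy))
  haveI := hDn
  have hDp : ∀ d ∈ D, d ^ p = 1 := fun d hd => ((hDmem d).mp hd).2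
  -- `p'`-elements centralizing `C` are trivial
  have hfaith' : ∀ g : G, (orderOf g).Coprime p → (∀ c ∈ C, g * c = c * g) → g = 1 := by
    intro g hg hgC
    have h1 : g ∈ Subgroup.centralizer (R : Set G) := by
      rw [Subgroup.mem_centralizer_iff]
      intro r hr'
      exact (hfaith g hg hgC r hr').symm
    have h2 : g ∈ R := hCR h1
    obtain ⟨k, hk⟩ := hRp ⟨g, h2⟩
    have h3 : g ^ p ^ k = 1 := by simpa using congrArg Subtype.val hk
    have h4 : orderOf g ∣ p ^ k := orderOf_dvd_of_pow_eq_one h3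
    have h5 : orderOf g = 1 := Nat.Coprime.eq_one_of_dvd (Nat.Coprime.pow_right k hg) h4
    exact orderOf_eq_one_iff.mp h5
  -- `C_G(D)` is a `p`-group
  have hR1p : IsPGroup p (Subgroup.centralizer (D : Set G)) := by
    apply isPGroup_of_coprime_trivial
    intro g hg hgo
    apply hfaith' g hgo
    apply coprime_centralizes hp C hCp g hgo
    intro d hd hdp
    have : d ∈ D := (hDmem d).mpr ⟨hd, hdp⟩
    exact (Subgroup.mem_centralizer_iff.mp hg d this).symm
  -- the degenerate case
  by_cases hD : D = ⊥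
  · exfalso
    have hC : C = ⊥ := by
      by_contra hC
      have hnt : Nontrivial ↥C := (Subgroup.nontrivial_iff_ne_bot C).mpr hC
      obtain ⟨m, hm0, hm⟩ := hCp.nontrivial_iff_card.mp hnt
      have hdvd : p ∣ Nat.card ↥C := hm ▸ dvd_pow_self p (Nat.pos_iff_ne_zero.mp hm0)
      obtain ⟨x, hx⟩ := exists_prime_orderOf_dvd_card' p hdvd
      have hx1 : ((x : ↥C) : G) ^ p = 1 := by
        have := pow_orderOf_eq_one x
        rw [hx] at this
        simpa using congrArg Subtype.val this
      have hxD : (x : G) ∈ D := (hDmem _).mpr ⟨x.2, hx1⟩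
      rw [hD, Subgroup.mem_bot] at hxD
      have hx2 : x = 1 := Subtype.ext (by simpa using hxD)
      rw [hx2, orderOf_one] at hx
      exact hpp.one_lt.ne hx
    have hRbot : ∀ x ∈ R, x = 1 := by
      intro x hx
      have h1 : x ∈ M := hcent x hx (fun c hc => by
        rw [hC, Subgroup.mem_bot] at hc; rw [hc]; simp)
      have h2 : x ∈ C := hMC h1
      rw [hC, Subgroup.mem_bot] at h2
      exact h2
    have hall : ∀ g : G, g = 1 := by
      intro g
      apply hRbot
      apply hCR
      rw [Subgroup.mem_centralizer_iff]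
      intro r hr'
      rw [hRbot r hr']; simp
    obtain ⟨_, _, hKH, _⟩ := h
    obtain ⟨x, hxH, hxK⟩ := SetLike.exists_of_lt hKH
    apply hxK
    rw [hall x]
    exact K.one_mem
  rcases exists_elemAb_sq D hDp hD with hcard | ⟨A, hAD, hAc, hAcard⟩
  · -- `|D| = p` : `C` is cyclic and `G / C` is abelian
    have hc : ∀ x ∈ C, x ^ p = 1 → ∀ t ∈ C, x * t = t * x := by
      intro x hx hxp t ht
      exact central_of_card_prime R hRp D (hDC.trans hCleR) hcard x
        ((hDmem x).mpr ⟨hx, hxp⟩) t (hCleR ht)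
    have hA : ∀ x ∈ C, x ^ p = 1 → x ∈ D := fun x hx hxp => (hDmem x).mpr ⟨hx, hxp⟩
    have hcomm2 := pcentral_cyclic_comm hp C hCp hc D hA hcard
    have hNp : IsPGroup p (Subgroup.centralizer (C : Set G)) := by
      apply isPGroup_of_coprime_trivial
      intro g hg hgo
      apply hfaith' g hgo
      intro c hc'
      exact (Subgroup.mem_centralizer_iff.mp hg c hc').symm
    have hNR : Subgroup.centralizer (C : Set G) ≤ R :=
      le_sSup ⟨inferInstance, hNp⟩
    have hcomm3 : ∀ g k : G, ⁅g, k⁆ ∈ C := by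
      intro g k
      have h1 : ⁅g, k⁆ ∈ Subgroup.centralizer (C : Set G) := by
        rw [Subgroup.mem_centralizer_iff]
        intro x hx
        exact (hcomm2 g k x hx).symm
      exact hMC (hcent _ (hNR h1) (fun c hc' => hcomm2 g k c hc'))
    rcases chief_transfer h C with ⟨h1, e1⟩ | ⟨h2, e2⟩
    · have hpw := chief_pow_mem h1 (e1.trans hn)
      have hle := pcentral_relIndex_le hp C hCp hc D hA (H ⊓ C) (K ⊓ C) inf_le_right
        h1.2.2.1.le hpw
      rw [e1, hn, hcard] at hle
      have : n ≤ 1 := hpow_le (by simpa using hle)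
      omega
    · have he := chief_central_index h2 (e2.trans hn)
        (fun g x _ => Subgroup.mem_sup_right (hcomm3 g x))
      rw [e2, hn] at he
      have : n ≤ 1 := hpow_le (by rw [he]; simp)
      omega
  · -- `|D| ≥ p²` : `C_G(D)` is `p`-central
    have hAp : ∀ a ∈ A, a ^ p = 1 := fun a ha => hDp a (hAD ha)
    have hAcomm : IsMulCommutative ↥A := ⟨⟨fun a b => Subtype.ext (hAc a a.2 b b.2)⟩⟩
    have hAcard' : Nat.card A ≤ p ^ 2 := hr A hAcomm hAp
    have hA2 : ∀ x ∈ Subgroup.centralizer (D : Set G), x ^ p = 1 → x ∈ A := by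
      intro x hx hxp
      apply rank_absorb hr A hAc hAp hAcard x hxp
      intro a ha
      exact (Subgroup.mem_centralizer_iff.mp hx a (hAD ha)).symm
    have hc1 : ∀ x ∈ Subgroup.centralizer (D : Set G), x ^ p = 1 →
        ∀ t ∈ Subgroup.centralizer (D : Set G), x * t = t * x := by
      intro x hx hxp t ht
      exact Subgroup.mem_centralizer_iff.mp ht x (hAD (hA2 x hx hxp))
    have key1 : ∀ {H K : Subgroup G}, IsChief H K → ∀ {n : ℕ}, K.relIndex H = p ^ n →
        H ≤ Subgroup.centralizer (D : Set G) → n ≤ 2 := by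
      intro H K h n hn hH
      have hpw := chief_pow_mem h hn
      have hle := pcentral_relIndex_le hp _ hR1p hc1 A hA2 H K hH h.2.2.1.le hpw
      rw [hn] at hle
      exact hpow_le (hle.trans hAcard')
    by_cases hab : ∀ a ∈ D, ∀ b ∈ D, a * b = b * a
    · have hDcomm : IsMulCommutative ↥D := ⟨⟨fun a b => Subtype.ext (hab a a.2 b b.2)⟩⟩
      have hDcard : Nat.card D = p ^ 2 :=
        le_antisymm (hr D hDcomm hDp) (hAcard.trans (Nat.card_mono (Set.toFinite _) hAD))
      have hidx := not_sq_dvd_index_centralizer D hDcard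
      rcases chief_transfer h (Subgroup.centralizer (D : Set G)) with ⟨h1, e1⟩ | ⟨h2, e2⟩
      · exact key1 h1 (e1.trans hn) inf_le_right
      · by_contra hcon
        push Not at hcon
        apply hidx
        have hd : (K ⊔ Subgroup.centralizer (D : Set G)).relIndex
            (H ⊔ Subgroup.centralizer (D : Set G)) ∣ (Subgroup.centralizer (D : Set G)).index :=
          relIndex_dvd_index_of_le' le_sup_right h2.2.2.1.le
        rw [e2, hn] at hd
        exact (pow_dvd_pow p hcon.le).trans hd
    · push Not at hab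
      obtain ⟨a, ha, b, hb, hab⟩ := hab
      obtain ⟨hD3, hZ, hgen⟩ := nonab_structure hr D hDp hDcl a b ha hb hab
      obtain ⟨S, hSn, hCS, hSidx, hSrel⟩ := nonab_aut_bound D hD3 hZ a b hgen
      haveI := hSn
      rcases chief_transfer h (Subgroup.centralizer (D : Set G)) with ⟨h1, e1⟩ | ⟨h2, e2⟩
      · exact key1 h1 (e1.trans hn) inf_le_right
      · rcases chief_transfer h2 S with ⟨h3, e3⟩ | ⟨h4, e4⟩
        · have hd := relIndex_dvd_relIndex_of_le' (N := Subgroup.centralizer (D : Set G))
            (K := (K ⊔ Subgroup.centralizer (D : Set G)) ⊓ S)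
            (H := (H ⊔ Subgroup.centralizer (D : Set G)) ⊓ S) (S := S)
            (le_inf le_sup_right hCS) h3.2.2.1.le inf_le_right
          rw [e3, e2, hn] at hd
          have hpos : 0 < (Subgroup.centralizer (D : Set G)).relIndex S :=
            Nat.pos_of_ne_zero Subgroup.index_ne_zero_of_finite
          exact hpow_le ((Nat.le_of_dvd hpos hd).trans hSrel)
        · by_contra hcon
          push Not at hcon
          apply hSidx
          have hd : ((K ⊔ Subgroup.centralizer (D : Set G)) ⊔ S).relIndex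
              ((H ⊔ Subgroup.centralizer (D : Set G)) ⊔ S) ∣ S.index :=
            relIndex_dvd_index_of_le' le_sup_right h4.2.2.1.le
          rw [e4, e2, hn] at hd
          exact (pow_dvd_pow p hcon.le).trans hd

end Cfsg.Agent.Lib.Helper40.Chief
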