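import Mathlib

/-! Project EP (helper7) = S5746, piece CARD: orbit-stabiliser for a transitive permutation
representation. -/

set_option autoImplicit false

namespace Cfsg.Agent.Lib.Helper7.EP

theorem EPCARD_mem {W : Type*} [Group W] {n : ℕ} (π : W →* Equiv.Perm (Fin n)) (a : Fin n)
    (w : W) : w ∈ (MulAction.stabilizer (Equiv.Perm (Fin n)) a).comap π ↔ π w a = a := by
  rw [Subgroup.mem_comap, MulAction.mem_stabilizer_iff, Equiv.Perm.smul_def]

/-- CARD: orbit-stabiliser for a transitive permutation representation. -/
theorem EPCARD {W : Type*} [Group W] [Finite W] {n : ℕ} (π : W →* Equiv.Perm (Fin n)) (a : Fin n)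
    (htr : ∀ i : Fin n, ∃ w : W, π w a = i) :
    Nat.card ((MulAction.stabilizer (Equiv.Perm (Fin n)) a).comap π) * n = Nat.card W := by
  have hwd : ∀ x y : W,
      QuotientGroup.leftRel ((MulAction.stabilizer (Equiv.Perm (Fin n)) a).comap π) x y →
      π x a = π y a := by
    intro x y hxy
    rw [QuotientGroup.leftRel_apply, EPCARD_mem] at hxy
    have h1 : π y a = π x (π (x⁻¹ * y) a) := by
      rw [← Equiv.Perm.mul_apply, ← map_mul, mul_inv_cancel_left]
    rw [h1, hxy]
  have hbij : Function.Bijective
      (Quotient.lift (fun w : W => π w a) hwd :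
        W ⧸ (MulAction.stabilizer (Equiv.Perm (Fin n)) a).comap π → Fin n) := by
    constructor
    · intro x y
      induction x using QuotientGroup.induction_on with
      | H x =>
        induction y using QuotientGroup.induction_on with
        | H y =>
          intro hxy
          have hxy' : π x a = π y a := hxy
          apply QuotientGroup.eq.mpr
          rw [EPCARD_mem, map_mul, Equiv.Perm.mul_apply, ← hxy', ← Equiv.Perm.mul_apply,
            ← map_mul, inv_mul_cancel, map_one, Equiv.Perm.one_apply]
    · intro i
      obtain ⟨w, hw⟩ := htr i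
      exact ⟨QuotientGroup.mk w, hw⟩
  have hidx : ((MulAction.stabilizer (Equiv.Perm (Fin n)) a).comap π).index = n := by
    rw [Subgroup.index]
    exact (Nat.card_eq_of_bijective _ hbij).trans (Nat.card_fin n)
  have h := Subgroup.card_mul_index ((MulAction.stabilizer (Equiv.Perm (Fin n)) a).comap π)
  rw [hidx] at h
  exact h

end Cfsg.Agent.Lib.Helper7.EP
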