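import Mathlib
import Cfsg.Agent.Lib.Helper23.EpoBurn

/-! # S4068 piece EPO-ORD (helper40) -/

set_option autoImplicit false

namespace Cfsg.Agent.Lib.Helper23

/-- PIECE EPO-ORD (Mathlib + EPO-BURN). -/
theorem epo_of_orders {G : Type*} [Group G] [Finite G] (hns : ¬ Group.IsSolvable G)
    (hΩ : (Set.range (orderOf : G → ℕ)).ncard ≤ 4) :
    (∀ x : G, x ≠ 1 → (orderOf x).Prime) ∧ (Nat.card G).primeFactors.card = 3 := by
  classical
  have h3 : 3 ≤ (Nat.card G).primeFactors.card := by
    by_contra h
    exact hns (epo_solvable_of_primeFactors_le_two (by omega))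
  have hfin : (Set.range (orderOf : G → ℕ)).Finite := Set.finite_range _
  have hsub : insert 1 ((Nat.card G).primeFactors : Set ℕ) ⊆ Set.range (orderOf : G → ℕ) := by
    intro n hn
    rcases hn with rfl | hn
    · exact ⟨1, orderOf_one⟩
    · have hn' : n ∈ (Nat.card G).primeFactors := hn
      have hp := Nat.prime_of_mem_primeFactors hn'
      have hd := Nat.dvd_of_mem_primeFactors hn'
      haveI : Fact n.Prime := ⟨hp⟩
      obtain ⟨x, hx⟩ := exists_prime_orderOf_dvd_card' n hd
      exact ⟨x, hx⟩
  have hcard : (insert 1 ((Nat.card G).primeFactors : Set ℕ)).ncard =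
      (Nat.card G).primeFactors.card + 1 := by
    rw [Set.ncard_insert_of_notMem, Set.ncard_coe_finset]
    · intro h
      have h' : 1 ∈ (Nat.card G).primeFactors := h
      exact Nat.not_prime_one (Nat.prime_of_mem_primeFactors h')
  have hle := Set.ncard_le_ncard hsub hfin
  have h3' : (Nat.card G).primeFactors.card = 3 := by omega
  have heq : insert 1 ((Nat.card G).primeFactors : Set ℕ) = Set.range (orderOf : G → ℕ) :=
    Set.eq_of_subset_of_ncard_le hsub (by omega) hfin
  refine ⟨fun x hx => ?_, h3'⟩
  have hmem : orderOf x ∈ insert 1 ((Nat.card G).primeFactors : Set ℕ) := by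
    rw [heq]
    exact ⟨x, rfl⟩
  rcases hmem with h | h
  · exact absurd (orderOf_eq_one_iff.mp h) hx
  · have h' : orderOf x ∈ (Nat.card G).primeFactors := h
    exact Nat.prime_of_mem_primeFactors h'

end Cfsg.Agent.Lib.Helper23
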