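import Mathlib
import Cfsg.Agent.Lib.Helper23.EpoBurn

/-! # S4068 piece EPO-SYL2 (helper40) -/

set_option autoImplicit false

namespace Cfsg.Agent.Lib.Helper23

/-- an odd divisor of a number with at most three primes (one of them `2`) has at most two -/
theorem epo_primeFactors_card_le_two_of_odd_dvd (n k : ℕ) (hn : n ≠ 0)
    (h3 : n.primeFactors.card ≤ 3) (h2 : 2 ∣ n) (hk : k ∣ n) (hodd : ¬ 2 ∣ k) :
    k.primeFactors.card ≤ 2 := by
  have hsub : k.primeFactors ⊆ n.primeFactors.erase 2 := by
    intro q hq
    rw [Finset.mem_erase]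
    refine ⟨?_, Nat.primeFactors_mono hk hn hq⟩
    rintro rfl
    exact hodd (Nat.dvd_of_mem_primeFactors hq)
  have h2mem : 2 ∈ n.primeFactors := Nat.mem_primeFactors.mpr ⟨Nat.prime_two, h2, hn⟩
  have := Finset.card_le_card hsub
  rw [Finset.card_erase_of_mem h2mem] at this
  omega

/-- PIECE EPO-SYL2 (Mathlib + the previous lemma). -/
theorem epo_sylow_two {G : Type*} [Group G] [Finite G] (hns : ¬ Group.IsSolvable G)
    (h3 : (Nat.card G).primeFactors.card ≤ 3) (h2 : 2 ∣ Nat.card G) (T : Sylow 2 G) :
    2 < Nat.card (T : Subgroup G) ∧ 1 < Nat.card (Sylow 2 G) := by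
  classical
  haveI : Fact (Nat.Prime 2) := ⟨Nat.prime_two⟩
  have hn : Nat.card G ≠ 0 := Nat.card_pos.ne'
  have hTsolv : Group.IsSolvable (T : Subgroup G) := by
    haveI := T.isPGroup'.isNilpotent
    infer_instance
  have hidx : ¬ 2 ∣ (T : Subgroup G).index := T.not_dvd_index
  have hmul := (T : Subgroup G).card_mul_index
  constructor
  · by_contra hle
    have hle' : Nat.card (T : Subgroup G) ≤ 2 := by omega
    have hT2 : Nat.card (T : Subgroup G) = 2 := by
      have hd : 2 ∣ Nat.card (T : Subgroup G) := by
        rw [← hmul] at h2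
        exact ((Nat.Prime.dvd_mul Nat.prime_two).mp h2).resolve_right hidx
      have := Nat.le_of_dvd Nat.card_pos hd
      omega
    -- N(T) ≤ C(T)
    have hNC : Subgroup.normalizer ((T : Subgroup G) : Set G) ≤
        Subgroup.centralizer ((T : Subgroup G) : Set G) := by
      intro g hg
      rw [Subgroup.mem_centralizer_iff]
      intro t ht
      have ht' : t ∈ (T : Subgroup G) := ht
      by_cases ht1 : t = 1
      · subst ht1
        simp
      · have hgt : g * t * g⁻¹ ∈ (T : Subgroup G) :=
          (Subgroup.mem_normalizer_iff.mp hg t).mp ht'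
        have hgt1 : g * t * g⁻¹ ≠ 1 := by
          intro h
          apply ht1
          have : t = g⁻¹ * (g * t * g⁻¹) * g := by group
          rw [this, h]
          group
        obtain ⟨y, -, hy⟩ := (Nat.card_eq_two_iff' (1 : (T : Subgroup G))).mp hT2
        have e1 : (⟨t, ht'⟩ : (T : Subgroup G)) = y := hy _ (fun h => ht1 (congrArg Subtype.val h))
        have e2 : (⟨g * t * g⁻¹, hgt⟩ : (T : Subgroup G)) = y :=
          hy _ (fun h => hgt1 (congrArg Subtype.val h))
        have heq : g * t * g⁻¹ = t := congrArg Subtype.val (e2.trans e1.symm)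
        calc t * g = (g * t * g⁻¹) * g := by rw [heq]
          _ = g * t := by group
    set φ := MonoidHom.transferSylow T hNC with hφ
    have hcompl := MonoidHom.ker_transferSylow_isComplement' T hNC
    have hKcard : Nat.card φ.ker * Nat.card (T : Subgroup G) = Nat.card G := hcompl.card_mul
    have hKodd : ¬ 2 ∣ Nat.card φ.ker := by
      intro h
      apply hidx
      have e : (T : Subgroup G).index = Nat.card φ.ker := by
        have h1 : Nat.card (T : Subgroup G) * (T : Subgroup G).index =
            Nat.card (T : Subgroup G) * Nat.card φ.ker := by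
          rw [hmul, mul_comm, hKcard]
        exact Nat.eq_of_mul_eq_mul_left Nat.card_pos h1
      rw [e]
      exact h
    have hKsolv : Group.IsSolvable φ.ker :=
      epo_solvable_of_primeFactors_le_two
        (epo_primeFactors_card_le_two_of_odd_dvd _ _ hn h3 h2 (Subgroup.card_subgroup_dvd_card _)
          hKodd)
    apply hns
    exact solvable_of_ker_le_range φ.ker.subtype φ (by rw [Subgroup.range_subtype])
  · by_contra hle
    have hle' : Nat.card (Sylow 2 G) ≤ 1 := by omega
    haveI : Subsingleton (Sylow 2 G) := Finite.card_le_one_iff_subsingleton.mp hle'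
    haveI hTn : (T : Subgroup G).Normal := Sylow.normal_of_subsingleton T
    have hQcard : Nat.card (G ⧸ (T : Subgroup G)) = (T : Subgroup G).index := rfl
    have hQsolv : Group.IsSolvable (G ⧸ (T : Subgroup G)) :=
      epo_solvable_of_primeFactors_le_two
        (epo_primeFactors_card_le_two_of_odd_dvd _ _ hn h3 h2
          (by rw [hQcard]; exact (T : Subgroup G).index_dvd_card) (by rw [hQcard]; exact hidx))
    apply hns
    exact solvable_of_ker_le_range (T : Subgroup G).subtype (QuotientGroup.mk' (T : Subgroup G))
      (by rw [QuotientGroup.ker_mk', Subgroup.range_subtype])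

end Cfsg.Agent.Lib.Helper23
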