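import Mathlib
import Cfsg.Agent.Lib.Helper4.FCDefs

/-!
# Project FC (S4146), piece LFK1: `|H : C_H(A)| = m`
-/

namespace Cfsg.Agent.Lib.Helper4.FC

universe u

/-- If `A ≤ C`, `A` normal, `A ⊓ H = ⊥`, `A ⊔ H = ⊤` then `|H : C ∩ H| = |G : C|`. -/
theorem lfk1_helper40_relIndex {G : Type u} [Group G] [Finite G] (A H C : Subgroup G)
    [hAn : A.Normal] (hAH : A ⊓ H = ⊥) (hsup : A ⊔ H = ⊤) (hAC : A ≤ C) :
    C.relIndex H = C.index := by
  -- `|G : A| = |H|`
  have hb : A.index = Nat.card H := by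
    rw [← Subgroup.relIndex_top_right, ← hsup, Subgroup.relIndex_sup_left,
      ← Subgroup.inf_relIndex_right, hAH, Subgroup.relIndex_bot_left]
  -- `A ⊔ (C ⊓ H) = C`
  have hd : A ⊔ (C ⊓ H) = C := by
    apply le_antisymm (sup_le hAC inf_le_left)
    intro c hc
    have hc' : c ∈ A ⊔ H := by rw [hsup]; exact Subgroup.mem_top c
    obtain ⟨a, ha, h, hh, rfl⟩ := Subgroup.mem_sup_of_normal_left.mp hc'
    have hhC : h ∈ C := by
      have := C.mul_mem (C.inv_mem (hAC ha)) hc
      rwa [inv_mul_cancel_left] at this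
    exact Subgroup.mul_mem _ (Subgroup.mem_sup_left ha) (Subgroup.mem_sup_right ⟨hhC, hh⟩)
  have hAK : A ⊓ (C ⊓ H) = ⊥ := by
    apply le_antisymm _ bot_le
    rw [← hAH]
    exact inf_le_inf_left A inf_le_right
  -- `|C : A| = |C ∩ H|`
  have he : A.relIndex C = Nat.card ↥(C ⊓ H) := by
    conv_lhs => rw [← hd]
    rw [Subgroup.relIndex_sup_left, ← Subgroup.inf_relIndex_right, hAK,
      Subgroup.relIndex_bot_left]
  have hf : Nat.card ↥(C ⊓ H) * C.index = Nat.card H := by
    rw [← he, Subgroup.relIndex_mul_index hAC, hb]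
  have hg : Nat.card ↥(C ⊓ H) * (C ⊓ H).relIndex H = Nat.card H := by
    have := Subgroup.relIndex_mul_relIndex (H := (⊥ : Subgroup G)) (K := C ⊓ H) (L := H)
      bot_le inf_le_right
    rwa [Subgroup.relIndex_bot_left, Subgroup.relIndex_bot_left] at this
  rw [Subgroup.inf_relIndex_right] at hg
  have hpos : 0 < Nat.card ↥(C ⊓ H) := Nat.card_pos
  exact Nat.eq_of_mul_eq_mul_left hpos (hg.trans hf.symm)

theorem fc_lfk1 : LF2Stmt.{u} → LFK1Stmt.{u} := by
  intro hLF2 G _ _ n m A H hctx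
  have hctx' := hctx
  obtain ⟨hFour, hAn, hAab, -, hAH, hsup, hAcs, hrel⟩ := hctx
  obtain ⟨hn1, -, -, -, -, -, -⟩ := hFour
  -- a noncentral element of `A`
  have hnle : ¬ A ≤ Subgroup.center G := by
    intro hle
    have h1 := Subgroup.relIndex_eq_one.mpr hle
    rw [hrel] at h1
    omega
  obtain ⟨y, hyA, hyZ⟩ := SetLike.not_le_iff_exists.mp hnle
  have hcsy : cs y = m := by
    rcases hAcs y hyA with h | h
    · exfalso
      apply hyZ
      have htop : Cen y = ⊤ := Subgroup.index_eq_one.mp h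
      rw [Subgroup.mem_center_iff]
      intro g
      have hg : g ∈ Cen y := by rw [htop]; exact Subgroup.mem_top g
      exact (Subgroup.mem_centralizer_iff.mp hg y rfl).symm
    · exact h
  -- `A ≤ C(y)`
  have hAC : A ≤ Cen y := by
    intro a ha
    rw [Subgroup.mem_centralizer_iff]
    intro h hh
    rw [Set.mem_singleton_iff] at hh
    rw [hh]
    exact hAab y hyA a ha
  -- `CHA A H = C(y) ⊓ H`
  have hK : CHA A H = Cen y ⊓ H := by
    apply le_antisymm
    · intro x hx
      have hx' : x ∈ H ⊓ Subgroup.centralizer (A : Set G) := hx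
      obtain ⟨hxH, hxC⟩ := Subgroup.mem_inf.mp hx'
      refine Subgroup.mem_inf.mpr ⟨?_, hxH⟩
      rw [Subgroup.mem_centralizer_iff]
      intro h hh
      rw [Set.mem_singleton_iff] at hh
      rw [hh]
      exact Subgroup.mem_centralizer_iff.mp hxC y hyA
    · intro x hx
      obtain ⟨hxC, hxH⟩ := Subgroup.mem_inf.mp hx
      have hxy : x * y = y * x := (Subgroup.mem_centralizer_iff.mp hxC y rfl).symm
      exact hLF2 G n m A H x y hctx' hxH hyA hcsy hxy
  rw [hK, Subgroup.inf_relIndex_right, lfk1_helper40_relIndex A H (Cen y) hAH hsup hAC]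
  exact hcsy

end Cfsg.Agent.Lib.Helper4.FC
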