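import Cfsg.Agent.S1404
import Cfsg.Agent.S1410
import Cfsg.Agent.Lib.Helper32.BG10Basic
import Cfsg.Agent.Lib.Helper32.Trans2
import Cfsg.Agent.Lib.Helper34.CN
import Cfsg.Agent.Lib.Helper34.PLen

/-!
# S1384 (helper41 project NF), piece NF-NIL (helper40)

The Sylow `q`-subgroup of a nilpotent subgroup.
-/

set_option autoImplicit false

open Cfsg Cfsg.Agent.Lib.Helper32 Cfsg.Agent.Lib.Helper32.BG10

namespace Cfsg.Agent.Lib.Helper40.NF

universe u

variable {G : Type u} [Group G] [Finite G]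

/-- NF-NIL: the Sylow `q`-subgroup `P` of a nilpotent subgroup `H` is normal in `H`, contains all
`q`-elements of `H`, and is centralized by the `q'`-elements of `H`. -/
theorem nil_syl {H : Subgroup G} (hHn : Group.IsNilpotent H) {q : ℕ} [Fact q.Prime]
    {P : Subgroup G} (hP : P ∈ sylSet q H) :
    H ≤ Subgroup.normalizer (P : Set G) ∧ (∀ h ∈ H, (∃ k : ℕ, h ^ (q ^ k) = 1) → h ∈ P) ∧
      ∀ h ∈ H, (orderOf h).Coprime q → ∀ z ∈ P, h * z = z * h := by
  haveI := hHn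
  have hq : q.Prime := Fact.out
  obtain ⟨S, hS⟩ := exists_sylow_of_mem_sylSet hP
  haveI hSn : (S : Subgroup H).Normal := inferInstance
  have hmemP : ∀ (x : H), (x : G) ∈ P ↔ x ∈ (S : Subgroup H) := by
    intro x
    rw [← hS, Subgroup.mem_map]
    constructor
    · rintro ⟨y, hy, hyx⟩
      have h : y = x := Subtype.ext hyx
      rw [← h]
      exact hy
    · intro hx
      exact ⟨x, hx, rfl⟩
  refine ⟨?_, ?_, ?_⟩
  · intro h hh
    rw [Subgroup.mem_normalizer_iff]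
    intro x
    constructor
    · intro hx
      have hxH : x ∈ H := hP.1 hx
      have h1 : (⟨x, hxH⟩ : H) ∈ (S : Subgroup H) := (hmemP ⟨x, hxH⟩).mp hx
      have h2 := hSn.conj_mem _ h1 ⟨h, hh⟩
      exact (hmemP _).mpr h2
    · intro hx
      have h1 : (⟨h * x * h⁻¹, hP.1 hx⟩ : H) ∈ (S : Subgroup H) := (hmemP _).mp hx
      have h2 := hSn.conj_mem _ h1 (⟨h, hh⟩ : H)⁻¹
      have h3 := (hmemP _).mpr h2
      have h4 : (((⟨h, hh⟩ : H)⁻¹ * ⟨h * x * h⁻¹, hP.1 hx⟩ * ((⟨h, hh⟩ : H)⁻¹)⁻¹ : H) : G) = x := by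
        simp [mul_assoc]
      rwa [h4] at h3
  · rintro h hh ⟨k, hk⟩
    have hk' : (⟨h, hh⟩ : H) ^ (q ^ k) = 1 := Subtype.ext (by simpa using hk)
    have hd : orderOf (⟨h, hh⟩ : H) ∣ q ^ k := orderOf_dvd_of_pow_eq_one hk'
    obtain ⟨j, -, hj⟩ := (Nat.dvd_prime_pow hq).mp hd
    have hpg : IsPGroup q (Subgroup.zpowers (⟨h, hh⟩ : H)) :=
      IsPGroup.of_card (n := j) (by rw [Nat.card_zpowers, hj])
    obtain ⟨Q, hQ⟩ := hpg.exists_le_sylow
    obtain ⟨g, hg⟩ := MulAction.exists_smul_eq H S Q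
    have hQS : Q = S := by
      rw [← hg]
      exact Sylow.smul_eq_of_normal
    rw [hQS] at hQ
    exact (hmemP ⟨h, hh⟩).mpr (hQ (Subgroup.mem_zpowers _))
  · intro h hh hcop z hz
    apply Cfsg.Agent.Lib.Helper34.commute_of_mem_nilpotent hHn hh (hP.1 hz)
    have hPq : IsPGroup q P := isPGroup_of_mem_sylSet hP
    obtain ⟨j, hj⟩ := hPq ⟨z, hz⟩
    have hz' : z ^ (q ^ j) = 1 := by
      have h := congrArg Subtype.val hj
      simpa using h
    have hd : orderOf z ∣ q ^ j := orderOf_dvd_of_pow_eq_one hz'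
    exact Nat.Coprime.coprime_dvd_right hd (Nat.Coprime.pow_right j hcop)

end Cfsg.Agent.Lib.Helper40.NF
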